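import Mathlib

set_option autoImplicit false

namespace H79.BA

variable {V : Type*} [AddCommGroup V] {H : Type*} [Group H] [DistribMulAction H V]

/-- conjugate vectors -/
def Cj (H : Type*) [Group H] [DistribMulAction H V] (x y : V) : Prop := ∃ h : H, h • x = y

theorem Cj.refl (x : V) : Cj H x x := ⟨1, one_smul _ _⟩

theorem Cj.symm {x y : V} (h : Cj H x y) : Cj H y x := by
  obtain ⟨g, rfl⟩ := h
  exact ⟨g⁻¹, inv_smul_smul _ _⟩

theorem Cj.trans {x y z : V} (h : Cj H x y) (h' : Cj H y z) : Cj H x z := by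
  obtain ⟨g, rfl⟩ := h
  obtain ⟨g', rfl⟩ := h'
  exact ⟨g' * g, mul_smul _ _ _⟩

theorem Cj.neg {x y : V} (h : Cj H x y) : Cj H (-x) (-y) := by
  obtain ⟨g, rfl⟩ := h
  exact ⟨g, smul_neg _ _⟩

/-- the map `h - 1` -/
def dl (V : Type*) [AddCommGroup V] [DistribMulAction H V] (h : H) : V →+ V :=
  DistribSMul.toAddMonoidHom V h - AddMonoidHom.id V

@[simp] theorem dl_apply (h : H) (x : V) : dl V h x = h • x - x := rfl

/-- fixed space -/
def U (V : Type*) [AddCommGroup V] [DistribMulAction H V] (h : H) : AddSubgroup V := (dl V h).ker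

/-- commutator space -/
def L (V : Type*) [AddCommGroup V] [DistribMulAction H V] (h : H) : AddSubgroup V := (dl V h).range

theorem mem_U {h : H} {x : V} : x ∈ U V h ↔ h • x = x := by
  simp [U, AddMonoidHom.mem_ker, sub_eq_zero]

theorem mem_L {h : H} {x : V} : x ∈ L V h ↔ ∃ y : V, h • y - y = x := by
  simp [L, AddMonoidHom.mem_range]

theorem sub_mem_L (h : H) (y : V) : h • y - y ∈ L V h := mem_L.2 ⟨y, rfl⟩

theorem index_U (h : H) : (U V h).index = Nat.card (L V h) := AddSubgroup.index_ker _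

theorem smul_mem_L {c : H} {x : V} (h : H) (hx : x ∈ L V c) : h • x ∈ L V (h * c * h⁻¹) := by
  obtain ⟨y, rfl⟩ := mem_L.1 hx
  refine mem_L.2 ⟨h • y, ?_⟩
  rw [smul_sub, mul_smul, mul_smul, inv_smul_smul]

theorem smul_mem_U {c : H} {x : V} (h : H) (hx : x ∈ U V c) : h • x ∈ U V (h * c * h⁻¹) := by
  rw [mem_U] at hx ⊢
  rw [mul_smul, mul_smul, inv_smul_smul, hx]

theorem smul_mem_of_L_le {P : AddSubgroup V} {c : H} (hc : L V c ≤ P) {x : V} (hx : x ∈ P) :
    c • x ∈ P := by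
  have : c • x = (c • x - x) + x := by abel
  rw [this]
  exact P.add_mem (hc (sub_mem_L c x)) hx

/-- the binary hypothesis in linear form -/
structure Bin (H : Type*) (V : Type*) [AddCommGroup V] [Group H] [DistribMulAction H V] : Prop where
  faithful : ∀ h : H, (∀ x : V, h • x = x) → h = 1
  ext : ∀ (X : Set V) (f : V → V), (∀ x ∈ X, Cj H x (f x)) →
    (∀ x ∈ X, ∀ y ∈ X, Cj H (x - y) (f x - f y)) → ∃ h : H, ∀ x ∈ X, h • x = f x

/-- maximal fixed space -/
def J (V : Type*) [AddCommGroup V] [DistribMulAction H V] (c : H) : Prop :=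
  c ≠ 1 ∧ ∀ g : H, g ≠ 1 → U V c ≤ U V g → U V g ≤ U V c

theorem J.conj {c : H} (hc : J V c) (h : H) : J V (h * c * h⁻¹) := by
  refine ⟨fun e => hc.1 (by simpa [mul_assoc] using congrArg (fun t => h⁻¹ * t * h) e), fun g hg hle x hx => ?_⟩
  have h1 : U V c ≤ U V (h⁻¹ * g * h⁻¹⁻¹) := fun y hy => by
    have := smul_mem_U h⁻¹ (hle (smul_mem_U h hy))
    simpa using this
  have h2 := hc.2 _ (fun e => hg (by
    calc g = h * (h⁻¹ * g * h⁻¹⁻¹) * h⁻¹ := by group
      _ = 1 := by rw [e]; group)) h1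
    (smul_mem_U h⁻¹ hx)
  exact (smul_inv_smul h x) ▸ smul_mem_U h h2

theorem J.of_le {c g : H} (hc : J V c) (hg : g ≠ 1) (h : U V c ≤ U V g) : J V g :=
  ⟨hg, fun g' hg' h' => (hc.2 g' hg' (h.trans h')).trans h⟩

theorem exists_J [Finite V] {h : H} (hh : h ≠ 1) : ∃ c : H, J V c ∧ U V h ≤ U V c := by
  obtain ⟨P, ⟨c, hc1, hc2, rfl⟩, hmax⟩ :=
    (Set.toFinite {P : AddSubgroup V | ∃ c : H, c ≠ 1 ∧ U V h ≤ U V c ∧ U V c = P}).exists_maximal
      ⟨U V h, h, hh, le_rfl, rfl⟩
  exact ⟨c, ⟨hc1, fun g hg hle => hmax ⟨g, hg, hc2.trans hle, rfl⟩ hle⟩, hc2⟩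

namespace Bin

variable (hB : Bin H V)
include hB

theorem eq_one_of_top {h : H} (hh : ⊤ ≤ U V h) : h = 1 :=
  hB.faithful h fun x => mem_U.1 (hh trivial)

theorem swap {v w : V} (h : Cj H v w) : ∃ g : H, g • v = w ∧ g • w = v := by
  classical
  by_cases hw : w = 0
  · subst hw
    obtain ⟨g, hg⟩ := h
    have : v = 0 := by simpa using congrArg (fun t => g⁻¹ • t) hg
    exact ⟨1, by simp [this], by simp [this]⟩
  have hne : v + w ≠ v := by simpa using hw
  obtain ⟨g, hg⟩ := hB.ext {v, v + w} (fun t => if t = v then w else t) (by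
    rintro x (rfl | rfl)
    · simpa using h
    · simpa [hne] using Cj.refl _) (by
    rintro x (rfl | rfl) y (rfl | rfl)
    · simpa using Cj.refl _
    · simpa [hne] using h.symm.neg
    · simpa [hne] using h.symm
    · simpa using Cj.refl _)
  have h1 : g • v = w := by simpa using hg v (by simp)
  have h2 : g • (v + w) = v + w := by simpa [hne] using hg (v + w) (by simp)
  refine ⟨g, h1, ?_⟩
  rw [smul_add, h1] at h2
  have : g • w = v + w - w := by rw [← h2]; abel
  simpa using this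

/-- the key lemma -/
theorem key (z : V) : ∃ g : H, ∀ x : V, Cj H x (x + z) → g • x = x + z := by
  classical
  by_cases hz : z = 0
  · exact ⟨1, fun x _ => by simp [hz]⟩
  by_cases hne : ∃ a : V, Cj H a (a + z)
  swap
  · exact ⟨1, fun x hx => (hne ⟨x, hx⟩).elim⟩
  obtain ⟨a, ha⟩ := hne
  have h0 : ∀ x : V, Cj H x (x + z) → a - x ≠ a := by
    intro x hx e
    have : x = 0 := by simpa using e
    subst this
    obtain ⟨g, hg⟩ := hx
    exact hz (by simpa using hg.symm)
  obtain ⟨g, hg⟩ := hB.ext ({a} ∪ {t | ∃ x, Cj H x (x + z) ∧ t = a - x})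
    (fun t => if t = a then a + z else t) (by
    rintro t (rfl | ⟨x, hx, rfl⟩)
    · simpa using ha
    · simpa [h0 x hx] using Cj.refl _) (by
    rintro t (rfl | ⟨x, hx, rfl⟩) s (rfl | ⟨y, hy, rfl⟩)
    · simpa using Cj.refl _
    · simp only [if_pos, h0 y hy, if_false]
      convert hy using 1 <;> abel
    · simp only [if_pos, h0 x hx, if_false]
      convert hx.neg using 1 <;> abel
    · simp only [h0 x hx, h0 y hy, if_false]
      exact Cj.refl _)
  refine ⟨g, fun x hx => ?_⟩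
  have h1 : g • a = a + z := by simpa using hg a (Or.inl rfl)
  have h2 : g • (a - x) = a - x := by simpa [h0 x hx] using hg (a - x) (Or.inr ⟨x, hx, rfl⟩)
  rw [smul_sub, h1] at h2
  have : g • x = a + z - (a - x) := by rw [← h2]; abel
  rw [this]; abel

/-- refined key lemma: an element agreeing with `k` at `x`, swapping, and fixing `U k`. -/
theorem key' (k : H) (x : V) : ∃ g : H, g • x = k • x ∧ g • k • x = x ∧ U V k ≤ U V g ∧
    ∀ y : V, Cj H y (y + (k • x - x)) → g • y = y + (k • x - x) := by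
  obtain ⟨g, hg⟩ := hB.key (k • x - x)
  have h1 : g • x = k • x := by
    rw [hg x ⟨k, by abel⟩]; abel
  refine ⟨g, h1, ?_, fun u hu => ?_, hg⟩
  · have := hg (-(k • x)) ⟨k⁻¹, by rw [smul_neg, inv_smul_smul]; abel⟩
    rw [smul_neg] at this
    have h2 : g • k • x = -(-(k • x) + (k • x - x)) := by rw [← this]; simp
    rw [h2]; abel
  · rw [mem_U] at hu ⊢
    have := hg (x + u) ⟨k, by rw [smul_add, hu]; abel⟩
    rw [smul_add, h1] at this
    have h2 : g • u = x + u + (k • x - x) - k • x := by rw [← this]; abel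
    rw [h2]; abel

theorem J1 {c : H} (hc : J V c) {x y : V} (hx : c • x ≠ x) (hy : Cj H y (y + (c • x - x))) :
    y - x ∈ U V c := by
  obtain ⟨g, h1, -, h3, h4⟩ := hB.key' c x
  have hg : g ≠ 1 := by rintro rfl; exact hx (by simpa using h1.symm)
  apply hc.2 g hg h3
  rw [mem_U, smul_sub, h4 y hy, h1]; abel

theorem J_sq {c : H} (hc : J V c) : c * c = 1 := by
  refine hB.faithful _ fun x => ?_
  by_cases hx : c • x = x
  · rw [mul_smul, hx, hx]
  have := mem_U.1 (hB.J1 hc hx (y := -(c • x)) ⟨c⁻¹, by rw [smul_neg, inv_smul_smul]; abel⟩)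
  rw [smul_sub, smul_neg] at this
  have h2 : c • c • x = -(-(c • x) - x + c • x) := by rw [← this]; abel
  rw [mul_smul, h2]; abel

theorem J_inv {c : H} (hc : J V c) : c⁻¹ = c := inv_eq_of_mul_eq_one_right (hB.J_sq hc)

theorem J_smul_smul {c : H} (hc : J V c) (x : V) : c • c • x = x := by
  rw [← mul_smul, hB.J_sq hc, one_smul]

theorem J_neg {c : H} (hc : J V c) {u : V} (hu : u ∈ L V c) : c • u = -u := by
  obtain ⟨y, rfl⟩ := mem_L.1 hu
  rw [smul_sub, hB.J_smul_smul hc]; abel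

/-- a vector difference lying in `L c` is realised by `c` -/
theorem J_real {c : H} (hc : J V c) {x y : V} (hxy : Cj H x y) (hne : y ≠ x) (hz : y - x ∈ L V c) :
    c • x = y := by
  obtain ⟨x', hx'⟩ := mem_L.1 hz
  have h1 : c • x' ≠ x' := fun e => hne (by rw [e, sub_self] at hx'; exact (sub_eq_zero.1 hx'.symm))
  have := mem_U.1 (hB.J1 hc h1 (y := x) (by rw [hx']; simpa using hxy))
  rw [smul_sub] at this
  have h2 : c • x = x - x' + c • x' := by rw [← this]; abel
  have h3 : c • x' = y - x + x' := by rw [← hx']; abel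
  rw [h2, h3]; abel

theorem J_eq {a b : H} (ha : J V a) (hb : J V b) {z : V} (hz : z ≠ 0) (h1 : z ∈ L V a)
    (h2 : z ∈ L V b) : a = b := by
  obtain ⟨x, hx⟩ := mem_L.1 h1
  have hax : a • x ≠ x := fun e => hz (by rw [← hx, e, sub_self])
  have hbx : ∀ u ∈ U V a, b • (x + u) = a • (x + u) := by
    intro u hu
    have hu' := mem_U.1 hu
    refine hB.J_real hb ⟨a, rfl⟩ ?_ ?_
    · rw [smul_add, hu']; simpa using hax
    · rw [smul_add, hu']; convert h2 using 1; rw [← hx]; abel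
  have hb0 : b • x = a • x := by simpa using hbx 0 (zero_mem _)
  by_contra hne
  have hab : a * b ≠ 1 := fun e => hne (by
    rw [← hB.J_inv ha]; exact (inv_eq_of_mul_eq_one_right e))
  have hle : U V a ≤ U V (a * b) := by
    intro u hu
    have := hbx u hu
    rw [smul_add, smul_add, hb0, add_right_inj, mem_U.1 hu] at this
    rw [mem_U, mul_smul, this, mem_U.1 hu]
  exact hax (mem_U.1 (ha.2 _ hab hle (by rw [mem_U, mul_smul, hb0, hB.J_smul_smul ha])))

theorem L_disj {a b : H} (ha : J V a) (hb : J V b) (hne : a ≠ b) : L V a ⊓ L V b = ⊥ := by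
  rw [eq_bot_iff]
  intro z hz
  by_contra h0
  exact hne (hB.J_eq ha hb h0 hz.1 hz.2)

theorem comm_of {c h : H} (hc : J V c) {u : V} (hu : u ∈ L V c) (h0 : u ≠ 0) (hh : h • u ∈ L V c) :
    h * c = c * h := by
  have := hB.J_eq (hc.conj h) hc (z := h • u) (fun e => h0 ((smul_eq_zero_iff_eq h).1 e)) (smul_mem_L h hu) hh
  calc h * c = (h * c * h⁻¹) * h := by group
    _ = c * h := by rw [this]

theorem comm_of_fix {c h : H} (hc : J V c) {u : V} (hu : u ∈ L V c) (h0 : u ≠ 0) (hh : u ∈ U V h) :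
    h * c = c * h :=
  hB.comm_of hc hu h0 (by rw [mem_U.1 hh]; exact hu)

theorem U_mul {a b : H} (ha : J V a) (hb : J V b) (hne : a ≠ b) : U V (a * b) = U V a ⊓ U V b := by
  ext x
  simp only [AddSubgroup.mem_inf, mem_U]
  constructor
  · intro h
    have h1 : b • x = a • x := by
      have := congrArg (fun t => a • t) h
      simpa [mul_smul, hB.J_smul_smul ha] using this
    have h2 : a • x - x ∈ L V a ⊓ L V b := ⟨sub_mem_L a x, h1 ▸ sub_mem_L b x⟩
    rw [hB.L_disj ha hb hne, AddSubgroup.mem_bot, sub_eq_zero] at h2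
    exact ⟨h2, h1.trans h2⟩
  · rintro ⟨h1, h2⟩
    rw [mul_smul, h2, h1]

theorem L_le_U {a b : H} (ha : J V a) (hb : J V b) (hne : a ≠ b) (hc : a * b = b * a) :
    L V a ≤ U V b := by
  intro u hu
  have h1 : b • u - u ∈ L V a ⊓ L V b := by
    refine ⟨(L V a).sub_mem ?_ hu, sub_mem_L b u⟩
    have := smul_mem_L b hu
    rwa [← hc, mul_inv_cancel_right] at this
  rwa [hB.L_disj ha hb hne, AddSubgroup.mem_bot, sub_eq_zero, ← mem_U] at h1

theorem exists_L {c : H} (hc : c ≠ 1) : ∃ u ∈ L V c, u ≠ 0 := by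
  by_contra h
  push Not at h
  exact hc (hB.faithful c fun x => sub_eq_zero.1 (h _ (sub_mem_L c x)))

theorem one_lt_card_L [Finite V] {c : H} (hc : c ≠ 1) : 1 < Nat.card (L V c) := by
  obtain ⟨u, hu, h0⟩ := hB.exists_L hc
  rw [AddSubgroup.one_lt_card_iff_ne_bot]
  intro e
  rw [e] at hu
  exact h0 hu

theorem L_inf_U {a b : H} (ha : J V a) (hn : a * b ≠ b * a) : L V a ⊓ U V b = ⊥ := by
  rw [eq_bot_iff]
  intro z hz
  by_contra h0
  exact hn (hB.comm_of_fix ha hz.1 h0 hz.2).symm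

theorem unip (ho : ∀ x : V, x + x = 0 → x = 0) {h : H} {u : V} (hw : h • u - u ∈ U V h) :
    h • u = u := by
  obtain ⟨g, h1, h2, h3, -⟩ := hB.key' h u
  have h4 := mem_U.1 (h3 hw)
  rw [smul_sub, h2, h1] at h4
  rw [← sub_eq_zero]
  apply ho
  calc h • u - u + (h • u - u) = (h • u - u) - (u - h • u) := by abel
    _ = 0 := by rw [h4, sub_self]

end Bin

theorem card_sup_of_disj [Finite V] {A B : AddSubgroup V} (h : A ⊓ B = ⊥) :
    Nat.card (A ⊔ B : AddSubgroup V) = Nat.card A * Nat.card B := by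
  rw [← Nat.card_prod]
  symm
  refine Nat.card_congr (Equiv.ofBijective
    (fun p : A × B => (⟨p.1 + p.2, AddSubgroup.add_mem_sup p.1.2 p.2.2⟩ : (A ⊔ B : AddSubgroup V)))
    ⟨?_, ?_⟩)
  · rintro ⟨x, y⟩ ⟨x', y'⟩ e
    have e' : (x : V) + y = x' + y' := congrArg Subtype.val e
    have h1 : (x : V) - x' ∈ A ⊓ B := by
      refine ⟨A.sub_mem x.2 x'.2, ?_⟩
      have : (x : V) - x' = y' - y := by rw [sub_eq_sub_iff_add_eq_add, e', add_comm]
      rw [this]; exact B.sub_mem y'.2 y.2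
    rw [h, AddSubgroup.mem_bot, sub_eq_zero] at h1
    have h2 : (y : V) = y' := by rw [h1] at e'; exact add_left_cancel e'
    exact Prod.ext (Subtype.ext h1) (Subtype.ext h2)
  · rintro ⟨z, hz⟩
    obtain ⟨x, hx, y, hy, rfl⟩ := AddSubgroup.mem_sup.1 hz
    exact ⟨⟨⟨x, hx⟩, ⟨y, hy⟩⟩, rfl⟩

theorem card_mul_le_of_disj [Finite V] {A B P : AddSubgroup V} (h : A ⊓ B = ⊥) (hA : A ≤ P)
    (hB : B ≤ P) : Nat.card A * Nat.card B ≤ Nat.card P := by
  rw [← card_sup_of_disj h]
  exact AddSubgroup.card_le_of_le (sup_le hA hB)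

theorem card_le_inf_mul_index [Finite V] (A P : AddSubgroup V) :
    Nat.card P ≤ Nat.card (A ⊓ P : AddSubgroup V) * A.index := by
  have h1 := (A.addSubgroupOf P).card_mul_index
  have h2 : Nat.card (A.addSubgroupOf P) = Nat.card (A ⊓ P : AddSubgroup V) := by
    rw [← AddSubgroup.inf_addSubgroupOf_right]
    exact Nat.card_congr (AddSubgroup.addSubgroupOfEquivOfLe inf_le_right).toEquiv
  have h3 : (A.addSubgroupOf P).index ≤ A.index :=
    AddSubgroup.relIndex_le_of_le_right (H := A) (K := P) (L := ⊤) le_top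
      (by rw [AddSubgroup.relIndex_top_right]; exact A.index_ne_zero_of_finite) |>.trans
      (by rw [AddSubgroup.relIndex_top_right])
  rw [← h1, h2]
  exact Nat.mul_le_mul_left _ h3

theorem eq_of_le_of_index_le [Finite V] {A B : AddSubgroup V} (h : A ≤ B) (hi : A.index ≤ B.index) :
    A = B := by
  apply AddSubgroup.eq_of_le_of_card_ge h
  have h1 := A.card_mul_index
  have h2 := B.card_mul_index
  have h3 : 0 < B.index := Nat.pos_of_ne_zero B.index_ne_zero_of_finite
  by_contra hlt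
  push Not at hlt
  nlinarith

end H79.BA
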