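import Mathlib
import Cfsg.Agent.Lib.BinAff.Basic

set_option autoImplicit false

namespace H79.BA

variable {V : Type*} [AddCommGroup V] {H : Type*} [Group H] [DistribMulAction H V]

/-- binary hypothesis with `-1` and the characteristic alternative -/
structure Bin2 (H : Type*) (V : Type*) [AddCommGroup V] [Group H] [DistribMulAction H V] : Prop
    extends Bin H V where
  neg : ∃ h : H, ∀ x : V, h • x = -x
  ch : (∀ x : V, x + x = 0) ∨ (∀ x : V, x + x = 0 → x = 0)

/-- a non-commuting pair of maximal elements -/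
structure NC (V : Type*) [AddCommGroup V] [DistribMulAction H V] (a b : H) : Prop where
  ha : J V a
  hb : J V b
  hn : a * b ≠ b * a

theorem NC.symm {a b : H} (h : NC V a b) : NC V b a := ⟨h.hb, h.ha, h.hn.symm⟩

theorem NC.ne {a b : H} (h : NC V a b) : a ≠ b := fun e => h.hn (by rw [e])

/-- the plane -/
def W (V : Type*) [AddCommGroup V] [DistribMulAction H V] (a b : H) : AddSubgroup V := L V a ⊔ L V b

/-- its complement -/
def C (V : Type*) [AddCommGroup V] [DistribMulAction H V] (a b : H) : AddSubgroup V := U V a ⊓ U V b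

theorem W_comm (a b : H) : W V a b = W V b a := sup_comm _ _
theorem C_comm (a b : H) : C V a b = C V b a := inf_comm _ _

theorem le_U_mul {P : AddSubgroup V} {g h : H} (hg : P ≤ U V g) (hh : P ≤ U V h) :
    P ≤ U V (g * h) := fun x hx => by
  rw [mem_U, mul_smul, mem_U.1 (hh hx), mem_U.1 (hg hx)]

theorem le_U_inv {P : AddSubgroup V} {g : H} (hg : P ≤ U V g) : P ≤ U V g⁻¹ := fun x hx => by
  rw [mem_U, inv_smul_eq_iff, mem_U.1 (hg hx)]

theorem le_U_conj {P : AddSubgroup V} {g h : H} (hg : P ≤ U V g) (hh : P ≤ U V h) :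
    P ≤ U V (g * h * g⁻¹) := le_U_mul (le_U_mul hg hh) (le_U_inv hg)

theorem le_U_pow {P : AddSubgroup V} {g : H} (hg : P ≤ U V g) (n : ℕ) : P ≤ U V (g ^ n) := by
  induction n with
  | zero => intro x _; simp [mem_U]
  | succ n ih => rw [pow_succ]; exact le_U_mul ih hg

namespace Bin2

variable [Finite V] (hB : Bin2 H V)
include hB

theorem card_L_le {a b : H} (h : NC V a b) : Nat.card (L V a) ≤ Nat.card (L V b) := by
  have h1 := card_mul_le_of_disj (hB.L_inf_U h.ha h.hn) le_top le_top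
  have h2 := (U V b).card_mul_index
  rw [index_U] at h2
  rw [AddSubgroup.card_top, ← h2, mul_comm] at h1
  exact Nat.le_of_mul_le_mul_left h1 Nat.card_pos

theorem card_L_eq {a b : H} (h : NC V a b) : Nat.card (L V a) = Nat.card (L V b) :=
  le_antisymm (hB.card_L_le h) (hB.card_L_le h.symm)

omit [Finite V] in
theorem W_inf_C {a b : H} (h : NC V a b) : W V a b ⊓ C V a b = ⊥ := by
  rw [eq_bot_iff]
  rintro z ⟨hz, hza, hzb⟩
  obtain ⟨u, hu, v, hv, rfl⟩ := AddSubgroup.mem_sup.1 hz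
  have ha : a • (u + v) = u + v := mem_U.1 hza
  have hb : b • (u + v) = u + v := mem_U.1 hzb
  have hau := hB.J_neg h.ha hu
  have hbv := hB.J_neg h.hb hv
  rw [smul_add, hau] at ha
  rw [smul_add, hbv] at hb
  have hav : a • v = v + (u + u) := by
    have : a • v = u + v - (-u) := by rw [← ha]; abel
    rw [this]; abel
  have hbu : b • u = u + (v + v) := by
    have : b • u = u + v - (-v) := by rw [← hb]; abel
    rw [this]; abel
  rcases hB.ch with h2 | h2
  · have h3 : v ∈ L V b ⊓ U V a := ⟨hv, mem_U.2 (by rw [hav, h2, add_zero])⟩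
    have h4 : u ∈ L V a ⊓ U V b := ⟨hu, mem_U.2 (by rw [hbu, h2, add_zero])⟩
    rw [hB.L_inf_U h.hb h.hn.symm] at h3
    rw [hB.L_inf_U h.ha h.hn] at h4
    rw [AddSubgroup.mem_bot.1 h3, AddSubgroup.mem_bot.1 h4]
    simp
  · have h3 : (a * b) • u - u = (u + v) + (u + v) := by
      rw [mul_smul, hbu, smul_add, smul_add, hau, hav]; abel
    have h4 := hB.unip h2 (h := a * b) (u := u) (by
      rw [h3]
      exact AddSubgroup.add_mem _ (le_U_mul inf_le_left inf_le_right (show u + v ∈ C V a b from ⟨hza, hzb⟩))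
        (le_U_mul inf_le_left inf_le_right (show u + v ∈ C V a b from ⟨hza, hzb⟩)))
    rw [h4, sub_self] at h3
    exact h2 _ h3.symm

theorem card_W {a b : H} (h : NC V a b) : Nat.card (W V a b) = Nat.card (L V a) ^ 2 := by
  rw [W, card_sup_of_disj (hB.L_disj h.ha h.hb h.ne), ← hB.card_L_eq h, sq]

theorem index_C {a b : H} (h : NC V a b) : (C V a b).index = Nat.card (L V a) ^ 2 := by
  apply le_antisymm
  · have := AddSubgroup.index_inf_le (H := U V a) (K := U V b)
    rwa [index_U, index_U, ← hB.card_L_eq h, ← sq] at this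
  · have h1 := card_mul_le_of_disj (hB.W_inf_C h) le_top le_top
    rw [AddSubgroup.card_top, ← (C V a b).card_mul_index, hB.card_W h, mul_comm] at h1
    exact Nat.le_of_mul_le_mul_left h1 Nat.card_pos

theorem W_sup_C {a b : H} (h : NC V a b) : W V a b ⊔ C V a b = ⊤ := by
  apply AddSubgroup.eq_top_of_card_eq
  rw [card_sup_of_disj (hB.W_inf_C h), hB.card_W h, ← hB.index_C h, mul_comm,
    AddSubgroup.card_mul_index]

theorem decomp {a b : H} (h : NC V a b) (x : V) : ∃ w ∈ W V a b, ∃ γ ∈ C V a b, w + γ = x :=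
  AddSubgroup.mem_sup.1 (by rw [hB.W_sup_C h]; trivial)

omit [Finite V] in
theorem eq_zero {a b : H} (h : NC V a b) {x : V} (h1 : x ∈ W V a b) (h2 : x ∈ C V a b) : x = 0 := by
  have : x ∈ W V a b ⊓ C V a b := ⟨h1, h2⟩
  rwa [hB.W_inf_C h] at this

omit [Finite V] in
theorem W_le_U {a b c : H} (h : NC V a b) (hc : J V c) (h1 : c * a = a * c) (h2 : c * b = b * c) :
    W V a b ≤ U V c := by
  have hca : a ≠ c := by rintro rfl; exact h.hn h2
  have hcb : b ≠ c := by rintro rfl; exact h.hn h1.symm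
  exact sup_le (hB.L_le_U h.ha hc hca h1.symm) (hB.L_le_U h.hb hc hcb h2.symm)

theorem nc_or {a b c : H} (h : NC V a b) (hc : J V c) (hK : C V a b ≤ U V c) :
    NC V c a ∨ NC V c b := by
  by_contra hn
  push Not at hn
  have h1 : c * a = a * c := by by_contra e; exact hn.1 ⟨hc, h.ha, e⟩
  have h2 : c * b = b * c := by by_contra e; exact hn.2 ⟨hc, h.hb, e⟩
  exact hc.1 (hB.eq_one_of_top (by rw [← hB.W_sup_C h]; exact sup_le (hB.W_le_U h hc h1 h2) hK))

theorem card_L_K {a b c : H} (h : NC V a b) (hc : J V c) (hK : C V a b ≤ U V c) :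
    Nat.card (L V c) = Nat.card (L V a) := by
  rcases hB.nc_or h hc hK with h1 | h1
  · exact hB.card_L_eq h1
  · rw [hB.card_L_eq h1, hB.card_L_eq h]

theorem C_eq {a b c d : H} (h : NC V a b) (h' : NC V c d) (hc : C V a b ≤ U V c)
    (hd : C V a b ≤ U V d) : C V c d = C V a b := by
  symm
  apply eq_of_le_of_index_le (le_inf hc hd)
  change _ ≤ (C V c d).index
  rw [hB.index_C h, hB.index_C h', hB.card_L_K h h'.ha hc]

theorem L_inf_C {a b c : H} (h : NC V a b) (hc : J V c) (hK : C V a b ≤ U V c) :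
    L V c ⊓ C V a b = ⊥ := by
  rcases hB.nc_or h hc hK with h1 | h1
  · rw [← hB.C_eq h h1 hK inf_le_left, eq_bot_iff, ← hB.W_inf_C h1]
    exact inf_le_inf_right _ le_sup_left
  · rw [← hB.C_eq h h1 hK inf_le_right, eq_bot_iff, ← hB.W_inf_C h1]
    exact inf_le_inf_right _ le_sup_left

theorem index_L_sup_C {a b c : H} (h : NC V a b) (hc : J V c) (hK : C V a b ≤ U V c) :
    (L V c ⊔ C V a b).index = Nat.card (L V a) := by
  have h1 := (L V c ⊔ C V a b).card_mul_index
  have h2 := (C V a b).card_mul_index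
  rw [card_sup_of_disj (hB.L_inf_C h hc hK), hB.card_L_K h hc hK] at h1
  rw [hB.index_C h, ← h1] at h2
  have h3 : 0 < Nat.card (L V a) * Nat.card (C V a b) := Nat.mul_pos Nat.card_pos Nat.card_pos
  apply Nat.eq_of_mul_eq_mul_left h3
  rw [← h2]; ring

/-- a nontrivial element fixing `C` and `L c` has fixed space `L c ⊔ C`. -/
theorem U_eq_sup {a b c g : H} (h : NC V a b) (hc : J V c) (hK : C V a b ≤ U V c) (hg : g ≠ 1)
    (h1 : L V c ≤ U V g) (h2 : C V a b ≤ U V g) : J V g ∧ U V g = L V c ⊔ C V a b := by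
  obtain ⟨d, hd, hgd⟩ := exists_J (V := V) hg
  have h3 : L V c ⊔ C V a b = U V d := by
    apply eq_of_le_of_index_le ((sup_le h1 h2).trans hgd)
    rw [hB.index_L_sup_C h hc hK, index_U, hB.card_L_K h hd (h2.trans hgd)]
  have h4 : U V g = U V d := le_antisymm hgd (h3 ▸ sup_le h1 h2)
  exact ⟨hd.of_le hg h4.ge, h4.trans h3.symm⟩

theorem exists_fix {a b : H} (h : NC V a b) (x : V) :
    ∃ c : H, J V c ∧ C V a b ≤ U V c ∧ x ∈ U V c := by
  by_contra hn
  push Not at hn
  have h0 : ∀ k : H, C V a b ≤ U V k → k • x = x → k = 1 := by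
    intro k hk hx
    by_contra h1
    obtain ⟨c, hc, hkc⟩ := exists_J (V := V) h1
    exact hn c hc (hk.trans hkc) (hkc (mem_U.2 hx))
  have hs : C V a b ≤ U V (a * b) := le_U_mul inf_le_left inf_le_right
  obtain ⟨g, h1, h2, h3, -⟩ := hB.key' (a * b) x
  have h4 : (a * b)⁻¹ * g = 1 := h0 _ (le_U_mul (le_U_inv hs) (hs.trans h3))
    (by rw [mul_smul, h1, inv_smul_smul])
  have h5 : g = a * b := (inv_mul_eq_one.1 h4).symm
  have h6 : a * b * (a * b) = 1 := h0 _ (le_U_mul hs hs) (by rw [mul_smul, ← h5, h5, ← h5, h1, h2])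
  apply h.hn
  have h7 : (a * b)⁻¹ = a * b := inv_eq_of_mul_eq_one_right h6
  rw [mul_inv_rev, hB.J_inv h.ha, hB.J_inv h.hb] at h7
  exact h7.symm

theorem exists_diff {a b : H} (h : NC V a b) {w : V} (hw : w ∈ W V a b) :
    ∃ x ∈ W V a b, (a * b) • x - x = w := by
  have hmem : ∀ x ∈ W V a b, (a * b) • x - x ∈ W V a b := fun x hx =>
    AddSubgroup.sub_mem _ (by
      rw [mul_smul]
      exact smul_mem_of_L_le le_sup_left (smul_mem_of_L_le le_sup_right hx)) hx
  let f : W V a b → W V a b := fun x => ⟨(a * b) • (x : V) - x, hmem x x.2⟩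
  have hf : Function.Injective f := by
    intro x y e
    have e' : (a * b) • (x : V) - x = (a * b) • (y : V) - y := congrArg Subtype.val e
    have h1 : (x : V) - y ∈ U V (a * b) := by
      rw [mem_U, smul_sub]
      have : (a * b) • (x : V) = (a * b) • (y : V) - y + x := by rw [← e']; abel
      rw [this]; abel
    rw [hB.U_mul h.ha h.hb h.ne] at h1
    exact Subtype.ext (sub_eq_zero.1 (hB.eq_zero h (AddSubgroup.sub_mem _ x.2 y.2) h1))
  obtain ⟨x, hx⟩ := Finite.surjective_of_injective hf ⟨w, hw⟩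
  exact ⟨x, x.2, congrArg Subtype.val hx⟩

theorem card_U_inf_W {a b c : H} (h : NC V a b) (hq : Nat.card (L V c) = Nat.card (L V a)) :
    Nat.card (L V a) ≤ Nat.card (U V c ⊓ W V a b : AddSubgroup V) := by
  have := card_le_inf_mul_index (U V c) (W V a b)
  rw [hB.card_W h, index_U, hq, sq] at this
  exact Nat.le_of_mul_le_mul_right this Nat.card_pos

/-! ### odd characteristic -/

theorem exists_eps {a b : H} (h : NC V a b) :
    ∃ ε : H, (∀ w ∈ W V a b, ε • w = -w) ∧ C V a b ≤ U V ε := by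
  classical
  have hneg : ∀ x : V, Cj H x (-x) := fun x => by
    obtain ⟨g, hg⟩ := hB.neg
    exact ⟨g, hg x⟩
  have hmain : ∀ w ∈ W V a b, ∀ γ ∈ C V a b, Cj H (w + γ) (-w + γ) := by
    intro w hw γ hγ
    obtain ⟨x, -, hx⟩ := hB.exists_diff h (w := -(w + w))
      (AddSubgroup.neg_mem _ (AddSubgroup.add_mem _ hw hw))
    obtain ⟨g, -, -, h3, h4⟩ := hB.key' (a * b) x
    rw [hx] at h4
    have h5 := h4 w (by convert hneg w using 1; abel)
    refine ⟨g, ?_⟩
    rw [smul_add, h5, mem_U.1 (h3 (le_U_mul inf_le_left inf_le_right hγ))]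
    abel
  obtain ⟨g, hg⟩ := hB.ext ((W V a b : Set V) ∪ (C V a b : Set V))
    (fun x => if x ∈ W V a b then -x else x) (by
      intro x _
      by_cases hx : x ∈ W V a b
      · simpa [hx] using hneg x
      · simpa [hx] using Cj.refl x) (by
      intro x hx y hy
      by_cases hx' : x ∈ W V a b <;> by_cases hy' : y ∈ W V a b
      · simp only [hx', hy', if_true]
        convert hneg (x - y) using 1; abel
      · simp only [hx', hy', if_true, if_false]
        have := hmain x hx' (-y) (AddSubgroup.neg_mem _ (hy.resolve_left hy'))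
        convert this using 1 <;> abel
      · simp only [hx', hy', if_true, if_false]
        have := hmain (-y) (AddSubgroup.neg_mem _ hy') x (hx.resolve_left hx')
        convert this using 1 <;> abel
      · simp only [hx', hy', if_false]
        exact Cj.refl _)
  refine ⟨g, fun w hw => by simpa [hw] using hg w (Or.inl hw), fun γ hγ => ?_⟩
  by_cases h0 : γ ∈ W V a b
  · rw [hB.eq_zero h h0 hγ]; exact zero_mem _
  · simpa [h0, mem_U] using hg γ (Or.inr hγ)

theorem eps_comm (ho : ∀ x : V, x + x = 0 → x = 0) {a b ε k : H} (h : NC V a b)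
    (h1 : ∀ w ∈ W V a b, ε • w = -w) (h2 : C V a b ≤ U V ε) (hk : C V a b ≤ U V k) :
    k * ε = ε * k := by
  have h3 : ∀ v : V, ε • v + v ∈ C V a b := by
    intro v
    obtain ⟨w, hw, γ, hγ, rfl⟩ := hB.decomp h v
    rw [smul_add, h1 w hw, mem_U.1 (h2 hγ)]
    convert AddSubgroup.add_mem _ hγ hγ using 1; abel
  have h4 : ∀ v : V, (k * ε * k⁻¹) • v + v ∈ C V a b := by
    intro v
    have := h3 (k⁻¹ • v)
    rw [← mem_U.1 (hk this), smul_add, smul_inv_smul] at this
    rwa [mul_smul, mul_smul]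
  have h5 : ε⁻¹ * (k * ε * k⁻¹) = 1 := by
    refine hB.faithful _ fun v => hB.unip ho ?_
    apply le_U_mul (le_U_inv h2) (le_U_conj hk h2)
    have e1 : (ε⁻¹ * (k * ε * k⁻¹)) • v - v = ε⁻¹ • (((k * ε * k⁻¹) • v + v) - (ε • v + v)) := by
      rw [add_sub_add_right_eq_sub, smul_sub, inv_smul_smul, mul_smul]
    rw [e1, mem_U.1 (le_U_inv h2 (AddSubgroup.sub_mem _ (h4 v) (h3 v)))]
    exact AddSubgroup.sub_mem _ (h4 v) (h3 v)
  have h6 : ε = k * ε * k⁻¹ := inv_mul_eq_one.1 h5
  calc k * ε = (k * ε * k⁻¹) * k := by group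
    _ = ε * k := by rw [← h6]

theorem smul_mem_W_odd (ho : ∀ x : V, x + x = 0 → x = 0) {a b k : H} (h : NC V a b)
    (hk : C V a b ≤ U V k) {w : V} (hw : w ∈ W V a b) : k • w ∈ W V a b := by
  obtain ⟨ε, h1, h2⟩ := hB.exists_eps h
  have h3 : ε • k • w = -(k • w) := by
    rw [← mul_smul, ← hB.eps_comm ho h h1 h2 hk, mul_smul, h1 w hw, smul_neg]
  obtain ⟨w', hw', γ, hγ, e⟩ := hB.decomp h (k • w)
  rw [← e, smul_add, h1 w' hw', mem_U.1 (h2 hγ)] at h3
  have : γ = 0 := ho _ (by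
    have : γ + γ = (-w' + γ) - (-(w' + γ)) := by abel
    rw [this, h3, sub_self])
  rw [← e, this, add_zero]; exact hw'

theorem L_le_W_odd (ho : ∀ x : V, x + x = 0 → x = 0) {a b c : H} (h : NC V a b)
    (hk : C V a b ≤ U V c) : L V c ≤ W V a b := by
  intro x hx
  obtain ⟨v, rfl⟩ := mem_L.1 hx
  obtain ⟨w, hw, γ, hγ, rfl⟩ := hB.decomp h v
  rw [smul_add, mem_U.1 (hk hγ), add_sub_add_right_eq_sub]
  exact AddSubgroup.sub_mem _ (hB.smul_mem_W_odd ho h hk hw) hw

/-- the orthogonal line -/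
theorem exists_perp (ho : ∀ x : V, x + x = 0 → x = 0) {a b c : H} (h : NC V a b) (hc : J V c)
    (hk : C V a b ≤ U V c) :
    ∃ d : H, J V d ∧ C V a b ≤ U V d ∧ d ≠ c ∧ d * c = c * d ∧ L V d = U V c ⊓ W V a b := by
  obtain ⟨ε, h1, h2⟩ := hB.exists_eps h
  have hcW := hB.L_le_W_odd ho h hk
  have hL : L V c ≤ U V (ε * c) := fun u hu => by
    rw [mem_U, mul_smul, hB.J_neg hc hu, smul_neg, h1 u (hcW hu), neg_neg]
  have hq := hB.one_lt_card_L (V := V) h.ha.1
  have hex : ∃ x ∈ U V c ⊓ W V a b, x ≠ 0 := by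
    have := hB.card_U_inf_W h (hB.card_L_K h hc hk)
    by_contra hn
    push Not at hn
    rw [(AddSubgroup.eq_bot_iff_forall _).2 hn, AddSubgroup.card_bot] at this
    omega
  have hne : ε * c ≠ 1 := by
    intro e
    obtain ⟨x, hx, h0⟩ := hex
    have : (ε * c) • x = x := by rw [e, one_smul]
    rw [mul_smul, mem_U.1 hx.1, h1 x hx.2] at this
    exact h0 (ho _ (by rw [← neg_eq_iff_add_eq_zero]; exact this))
  obtain ⟨hd, -⟩ := hB.U_eq_sup h hc hk hne hL (le_U_mul h2 hk)
  have hdc : ε * c ≠ c := by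
    intro e
    have e1 : ε = 1 := by simpa using e
    obtain ⟨x, hx, h0⟩ := hex
    have := h1 x hx.2
    rw [e1, one_smul] at this
    exact h0 (ho _ (by rw [← neg_eq_iff_add_eq_zero]; exact this.symm))
  have hcm : ε * c * c = c * (ε * c) := by
    rw [← mul_assoc, hB.eps_comm ho h h1 h2 hk]
  refine ⟨ε * c, hd, le_U_mul h2 hk, hdc, hcm, le_antisymm ?_ ?_⟩
  · exact le_inf (hB.L_le_U hd hc hdc hcm) (hB.L_le_W_odd ho h (le_U_mul h2 hk))
  · intro x hx
    have h4 : (ε * c) • x = -x := by rw [mul_smul, mem_U.1 hx.1, h1 x hx.2]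
    -- halve x inside `U c ⊓ W`
    let f : (U V c ⊓ W V a b : AddSubgroup V) → (U V c ⊓ W V a b : AddSubgroup V) := fun y => -y - y
    have hf : Function.Injective f := by
      intro y z e
      have e' : -(y : V) - y = -z - z := congrArg Subtype.val e
      apply Subtype.ext
      rw [← sub_eq_zero]
      apply ho
      have : (y : V) - z + (y - z) = (-z - z) - (-y - y) := by abel
      rw [this, e', sub_self]
    obtain ⟨y, hy⟩ := Finite.surjective_of_injective hf ⟨x, hx⟩
    refine mem_L.2 ⟨y, ?_⟩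
    rw [mul_smul, mem_U.1 y.2.1, h1 y y.2.2]
    exact congrArg Subtype.val hy

theorem cover_odd (ho : ∀ x : V, x + x = 0 → x = 0) {a b : H} (h : NC V a b) {x : V}
    (hx : x ∈ W V a b) : ∃ c : H, J V c ∧ C V a b ≤ U V c ∧ x ∈ L V c := by
  obtain ⟨c, hc, hk, hxc⟩ := hB.exists_fix h x
  obtain ⟨d, hd, hdk, -, -, hL⟩ := hB.exists_perp ho h hc hk
  exact ⟨d, hd, hdk, hL ▸ ⟨hxc, hx⟩⟩

end Bin2

end H79.BA
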