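import Mathlib
import Cfsg.Agent.Lib.BinAff.Plane

set_option autoImplicit false

namespace H79.BA

variable {V : Type*} [AddCommGroup V] {H : Type*} [Group H] [DistribMulAction H V]

theorem neg_self (he : ∀ x : V, x + x = 0) (x : V) : -x = x := neg_eq_of_add_eq_zero_left (he x)

theorem sub_eq_add' (he : ∀ x : V, x + x = 0) (x y : V) : x - y = x + y := by
  rw [sub_eq_add_neg, neg_self he]

namespace Bin

variable (hB : Bin H V)
include hB

theorem parall {x y z : V} (h1 : Cj H x (x + z)) (h2 : Cj H y (y + z))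
    (h3 : Cj H (x + y) (x + y + z)) : z = 0 := by
  obtain ⟨g, hg⟩ := hB.key z
  have := hg _ h3
  rw [smul_add, hg _ h1, hg _ h2] at this
  have h4 : z = (x + z + (y + z)) - (x + y + z) := by abel
  rw [h4, this, sub_self]

theorem no_four (he : ∀ x : V, x + x = 0) {h : H} (h4 : h * h * (h * h) = 1) : h * h = 1 := by
  have key : ∀ v : V, (h * h) • (h • v + v) = h • v + v → (h * h) • v = v := by
    intro v hv
    have hz : (h * h) • v + v = 0 := by
      apply hB.parall (x := v) (y := h • v + v)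
      · exact ⟨h * h, by rw [add_comm ((h * h) • v), ← add_assoc, he, zero_add]⟩
      · refine ⟨h, ?_⟩
        rw [smul_add, mul_smul]
        calc h • h • v + h • v = h • h • v + h • v + (v + v) := by rw [he v, add_zero]
          _ = _ := by abel
      · refine ⟨h * h, ?_⟩
        rw [smul_add, hv]
        calc (h * h) • v + (h • v + v) = (h * h) • v + (h • v + v) + (v + v) := by rw [he v, add_zero]
          _ = _ := by abel
    rw [← neg_self he v, ← add_eq_zero_iff_eq_neg] 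
    rw [neg_self he v]
    exact hz
  refine hB.faithful _ fun v => key v (key _ ?_)
  have e : h • (h • v + v) + (h • v + v) = (h * h) • v + v := by
    rw [smul_add, mul_smul]
    calc h • h • v + h • v + (h • v + v) = h • h • v + v + (h • v + h • v) := by abel
      _ = _ := by rw [he, add_zero]
  rw [e, smul_add, ← mul_smul, h4, one_smul, add_comm]

theorem sq_of_two_pow (he : ∀ x : V, x + x = 0) {h : H} (n : ℕ) (hn : h ^ (2 ^ n) = 1) :
    h * h = 1 := by
  induction n generalizing h with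
  | zero => simp at hn; simp [hn]
  | succ n ih =>
    apply hB.no_four he
    apply ih
    rw [← sq, ← pow_mul, ← pow_succ', hn]

theorem quad (he : ∀ x : V, x + x = 0) {r c : H} (hr : r * r = 1) (hc : c * c = 1)
    (h : r * c = c * r) : L V c ≤ U V r := by
  intro u hu
  obtain ⟨v, rfl⟩ := mem_L.1 hu
  rw [sub_eq_add' he, mem_U]
  have hrr : r • r • v = v := by rw [← mul_smul, hr, one_smul]
  have hcr : c • r • v = r • c • v := by rw [← mul_smul, ← h, mul_smul]
  have hz : r • c • v + r • v + c • v + v = 0 := by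
    apply hB.parall (x := r • v + v) (y := c • v + v)
    · refine ⟨c, ?_⟩
      rw [smul_add, hcr]
      calc r • c • v + c • v = r • c • v + c • v + (r • v + r • v) + (v + v) := by
            rw [he, he, add_zero, add_zero]
        _ = _ := by abel
    · refine ⟨r, ?_⟩
      rw [smul_add]
      calc r • c • v + r • v = r • c • v + r • v + (c • v + c • v) + (v + v) := by
            rw [he, he, add_zero, add_zero]
        _ = _ := by abel
    · refine ⟨r, ?_⟩
      rw [smul_add, smul_add, smul_add, hrr]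
      calc v + r • v + (r • c • v + r • v)
          = v + r • v + (r • c • v + r • v) + (c • v + c • v) + (v + v) := by
            rw [he (c • v), he v, add_zero, add_zero]
        _ = _ := by abel
  rw [smul_add]
  calc r • c • v + r • v = r • c • v + r • v + c • v + v + (c • v + v) - (c • v + c • v) - (v + v) := by
        abel
    _ = _ := by rw [hz, he, he]; abel

/-- an involution realising a given conjugation -/
theorem key_inv [Finite H] (he : ∀ x : V, x + x = 0) (k : H) (x : V) :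
    ∃ r : H, r * r = 1 ∧ r • x = k • x ∧ U V k ≤ U V r := by
  obtain ⟨g, h1, h2, h3, -⟩ := hB.key' k x
  obtain ⟨n, m, hm, e⟩ := Nat.exists_eq_two_pow_mul_odd (orderOf_pos g).ne'
  refine ⟨g ^ m, hB.sq_of_two_pow he n ?_, ?_, le_U_pow h3 m⟩
  · rw [← pow_mul, mul_comm, ← e, pow_orderOf_eq_one]
  · obtain ⟨j, rfl⟩ := hm
    have : ∀ i : ℕ, (g ^ (2 * i)) • k • x = k • x := by
      intro i
      induction i with
      | zero => simp
      | succ i ih => rw [mul_add, mul_one, pow_add, mul_smul, sq, mul_smul, h2, h1, ih]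
    rw [pow_succ, mul_smul, h1, this]

end Bin

namespace Bin2

variable [Finite V] [Finite H] (hB : Bin2 H V)
include hB

omit [Finite H] in
theorem U_eq_even (he : ∀ x : V, x + x = 0) {a b c : H} (h : NC V a b) (hc : J V c)
    (hk : C V a b ≤ U V c) : U V c = L V c ⊔ C V a b :=
  (hB.U_eq_sup h hc hk hc.1 (hB.quad he (hB.J_sq hc) (hB.J_sq hc) rfl) hk).2

omit [Finite H] in
/-- an involution of `K` moving a vector of the axis of `c` outside `C` into the axis fixes it -/
theorem U_le_even (he : ∀ x : V, x + x = 0) {a b c r : H} (h : NC V a b) (hc : J V c)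
    (hk : C V a b ≤ U V c) (hr : r * r = 1) (hrk : C V a b ≤ U V r) {x : V} (hx : x ∈ U V c)
    (hxC : x ∉ C V a b) (hrx : r • x ∈ U V c) : U V c ≤ U V r := by
  have hri : r⁻¹ = r := inv_eq_of_mul_eq_one_right hr
  have hc' := hc.conj r
  have hk' : C V a b ≤ U V (r * c * r⁻¹) := le_U_conj hrk hk
  have hcm : (r * c * r⁻¹) * c = c * (r * c * r⁻¹) := by
    by_contra hn
    have := hB.C_eq h ⟨hc', hc, hn⟩ hk' hk
    have h1 : r • x ∈ C V a b := this ▸ (⟨smul_mem_U r hx, hrx⟩ : r • x ∈ C V (r * c * r⁻¹) c)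
    have h2 := mem_U.1 (hrk h1)
    rw [← mul_smul, hr, one_smul] at h2
    exact hxC (h2 ▸ h1)
  have hcc := hB.J_sq hc
  have hcc' := hB.J_sq hc'
  have h4 : r * c * (r * c) = 1 := by
    apply hB.no_four he
    have e : r * c * (r * c) = (r * c * r⁻¹) * c := by rw [hri]; group
    rw [e]
    calc r * c * r⁻¹ * c * (r * c * r⁻¹ * c) = r * c * r⁻¹ * (c * (r * c * r⁻¹)) * c := by group
      _ = r * c * r⁻¹ * (r * c * r⁻¹) * (c * c) := by rw [← hcm]; group
      _ = 1 := by rw [hcc, hcc', one_mul]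
  have h5 : r * c = c * r := by
    have := inv_eq_of_mul_eq_one_right h4
    rw [mul_inv_rev, hri, hB.J_inv hc] at this
    exact this.symm
  rw [hB.U_eq_even he h hc hk]
  exact sup_le (hB.quad he hr hcc h5) hrk

theorem axis_even (he : ∀ x : V, x + x = 0) {a b c k : H} (h : NC V a b) (hc : J V c)
    (hk : C V a b ≤ U V c) (hkk : C V a b ≤ U V k) {x : V} (hx : x ∈ U V c)
    (hkx : k • x ∈ U V c) : k • x = x := by
  by_cases hxC : x ∈ C V a b
  · exact mem_U.1 (hkk hxC)
  obtain ⟨r, hr, h1, h2⟩ := hB.key_inv he k x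
  rw [← h1]
  exact mem_U.1 (hB.U_le_even he h hc hk hr (hkk.trans h2) hx hxC (h1 ▸ hkx) hx)

omit [Finite V] [Finite H] in
theorem J_mul_pow {a b : H} (h : NC V a b) (n : ℕ) : J V (a * (a * b) ^ n) := by
  have haa := hB.J_sq h.ha
  have hbb := hB.J_sq h.hb
  have key : ∀ j : ℕ, a * (a * b) ^ j = ((a * b) ^ j)⁻¹ * a := by
    intro j
    have e : a * (a * b) * a⁻¹ = (a * b)⁻¹ := by
      rw [mul_inv_rev, hB.J_inv h.hb, ← mul_assoc, haa, one_mul]
    have : a * (a * b) ^ j * a⁻¹ = ((a * b) ^ j)⁻¹ := by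
      rw [← conj_pow, e, inv_pow]
    rw [← this]; group
  rcases Nat.even_or_odd' n with ⟨j, rfl | rfl⟩
  · have := h.ha.conj ((a * b) ^ j)⁻¹
    convert this using 1
    rw [two_mul, pow_add, ← mul_assoc, key, inv_inv]
  · have := h.hb.conj ((a * b) ^ j)⁻¹
    convert this using 1
    have e : 2 * j + 1 = j + (1 + j) := by ring
    rw [e, pow_add, ← mul_assoc, key, inv_inv, pow_add, pow_one]
    calc ((a * b) ^ j)⁻¹ * a * (a * b * (a * b) ^ j) = ((a * b) ^ j)⁻¹ * (a * a) * b * (a * b) ^ j := by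
          simp only [mul_assoc]
      _ = _ := by rw [haa, mul_one]

theorem odd_order (he : ∀ x : V, x + x = 0) {a b : H} (h : NC V a b) : Odd (orderOf (a * b)) := by
  by_contra hn
  obtain ⟨m, hm⟩ := Nat.not_odd_iff_even.1 hn
  have hm0 : 0 < m := by have := orderOf_pos (a * b); omega
  have he1 : (a * b) ^ m ≠ 1 := pow_ne_one_of_lt_orderOf hm0.ne' (by omega)
  have he2 : (a * b) ^ m * (a * b) ^ m = 1 := by rw [← pow_add, ← hm, pow_orderOf_eq_one]
  have he3 : (b * a) ^ m = (a * b) ^ m := by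
    have : b * a = (a * b)⁻¹ := by rw [mul_inv_rev, hB.J_inv h.ha, hB.J_inv h.hb]
    rw [this, inv_pow]
    exact inv_eq_of_mul_eq_one_right he2
  have main : ∀ a b : H, NC V a b → (a * b) ^ m ≠ 1 → (a * b) ^ m * (a * b) ^ m = 1 →
      U V a ≤ U V ((a * b) ^ m) := by
    intro a b h he1 he2
    have hJ := hB.J_mul_pow h m
    have hK : C V a b ≤ U V ((a * b) ^ m) := le_U_pow (le_U_mul inf_le_left inf_le_right) m
    have hcm : (a * b) ^ m * a = a * (a * b) ^ m := by
      have h1 := hB.J_inv hJ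
      rw [mul_inv_rev, inv_eq_of_mul_eq_one_right he2, hB.J_inv h.ha] at h1
      exact h1
    rw [hB.U_eq_even he h h.ha inf_le_left]
    exact sup_le (hB.quad he he2 (hB.J_sq h.ha) hcm) hK
  have h1 := main a b h he1 he2
  have h2 := main b a h.symm (he3 ▸ he1) (he3 ▸ he2)
  rw [he3] at h2
  apply he1
  apply hB.eq_one_of_top
  rw [← hB.W_sup_C h]
  refine sup_le (sup_le ?_ ?_) (inf_le_left.trans h1)
  · exact (hB.quad he (hB.J_sq h.ha) (hB.J_sq h.ha) rfl).trans h1
  · exact (hB.quad he (hB.J_sq h.hb) (hB.J_sq h.hb) rfl).trans h2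

/-- non-commuting maximal elements are conjugate by a maximal element of the same plane -/
theorem exists_conj (he : ∀ x : V, x + x = 0) {a b : H} (h : NC V a b) :
    ∃ d : H, J V d ∧ C V a b ≤ U V d ∧ d * a * d⁻¹ = b := by
  obtain ⟨j, hj⟩ := hB.odd_order he h
  have hJ := hB.J_mul_pow h (j + 1)
  refine ⟨_, hJ, le_U_mul inf_le_left (le_U_pow (le_U_mul inf_le_left inf_le_right) _), ?_⟩
  have h1 := hB.J_inv hJ
  have haa := hB.J_sq h.ha
  have h2 : (a * b) ^ (j + 1) * (a * b) ^ (j + 1) = a * b := by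
    rw [← pow_add, show j + 1 + (j + 1) = (2 * j + 1) + 1 by ring, ← hj, pow_succ,
      pow_orderOf_eq_one, one_mul]
  rw [h1]
  calc a * (a * b) ^ (j + 1) * a * (a * (a * b) ^ (j + 1))
      = a * ((a * b) ^ (j + 1) * (a * a) * (a * b) ^ (j + 1)) := by group
    _ = a * (a * b) := by rw [haa, mul_one, h2]
    _ = b := by rw [← mul_assoc, haa, one_mul]

theorem no_comm_even (he : ∀ x : V, x + x = 0) {a b c d : H} (h : NC V a b) (hc : J V c)
    (hd : J V d) (hck : C V a b ≤ U V c) (hdk : C V a b ≤ U V d) (hcd : c * d = d * c) : c = d := by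
  by_contra hne
  have hU : U V c = U V d := by
    have h1 : U V c ≤ U V d := by
      rw [hB.U_eq_even he h hc hck]
      exact sup_le (hB.L_le_U hc hd hne hcd) hdk
    exact le_antisymm h1 (hc.2 _ hd.1 h1)
  obtain ⟨e, hek, hce⟩ : ∃ e : H, C V a b ≤ U V e ∧ NC V c e := by
    rcases hB.nc_or h hc hck with h1 | h1
    · exact ⟨a, inf_le_left, h1⟩
    · exact ⟨b, inf_le_right, h1⟩
  have hde : NC V d e := by
    refine ⟨hd, hce.hb, fun hcm => hce.hn ?_⟩
    obtain ⟨u, hu, h0⟩ := hB.exists_L (V := V) hce.hb.1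
    have hed : e ≠ d := by rintro rfl; exact hce.hn hcd
    exact hB.comm_of_fix hce.hb hu h0 (hU ▸ hB.L_le_U hce.hb hd hed hcm.symm hu)
  obtain ⟨c2, hc2, hc2k, e1⟩ := hB.exists_conj he hce
  obtain ⟨d2, hd2, hd2k, e2⟩ := hB.exists_conj he hde
  rw [hB.C_eq h hce hck hek] at hc2k
  rw [hB.C_eq h hde hdk hek] at hd2k
  have hne2 : d2 ≠ c2 := by
    rintro rfl
    exact hne (by simpa using e1.trans e2.symm)
  have hg : (d2 * c2) * c * (d2 * c2)⁻¹ = d := by
    calc (d2 * c2) * c * (d2 * c2)⁻¹ = d2 * (c2 * c * c2⁻¹) * d2⁻¹ := by group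
      _ = d2⁻¹ * (d2 * d * d2⁻¹) * d2 := by rw [e1, e2, hB.J_inv hd2]
      _ = d := by group
  obtain ⟨u, hu, h0⟩ := hB.exists_L (V := V) hc.1
  have huc : u ∈ U V c := hB.quad he (hB.J_sq hc) (hB.J_sq hc) rfl hu
  have h3 : (d2 * c2) • u = u := hB.axis_even he h hc hck (le_U_mul hd2k hc2k) huc (by
    have := smul_mem_U (d2 * c2) huc
    rwa [hg, ← hU] at this)
  have h4 : u ∈ U V d2 ⊓ U V c2 := by rw [← hB.U_mul hd2 hc2 hne2]; exact mem_U.2 h3
  have h5 := hB.comm_of_fix hc hu h0 h4.2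
  apply hce.ne
  rw [← e1, h5]; group

theorem cover_even (he : ∀ x : V, x + x = 0) {a b : H} (h : NC V a b) {w : V}
    (hw : w ∈ W V a b) (h0 : w ≠ 0) : ∃ c : H, J V c ∧ C V a b ≤ U V c ∧ w ∈ L V c := by
  obtain ⟨x, -, hx⟩ := hB.exists_diff h hw
  obtain ⟨r, hr, h1, h2⟩ := hB.key_inv he (a * b) x
  have hrk : C V a b ≤ U V r := (le_U_mul inf_le_left inf_le_right).trans h2
  have hwr : w ∈ L V r := by rw [← hx, ← h1]; exact sub_mem_L r x
  have hrw : r • w = w := by
    rw [← hx, ← h1, smul_sub, ← mul_smul, hr, one_smul, sub_eq_add' he, sub_eq_add' he, add_comm]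
  obtain ⟨c, hc, hck, hwc⟩ := hB.exists_fix h w
  have hr1 : r ≠ 1 := by
    rintro rfl
    rw [one_smul] at h1
    exact h0 (by rw [← hx, ← h1, sub_self])
  exact ⟨r, hc.of_le hr1 (hB.U_le_even he h hc hck hr hrk hwc (fun hC => h0 (hB.eq_zero h hw hC))
    (by rw [hrw]; exact hwc)), hrk, hwr⟩

theorem L_le_W_even (he : ∀ x : V, x + x = 0) {a b c : H} (h : NC V a b) (hc : J V c)
    (hk : C V a b ≤ U V c) : L V c ≤ W V a b := by
  have h1 : U V c ⊓ W V a b ≤ L V c := by
    intro w hw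
    by_cases h0 : w = 0
    · rw [h0]; exact zero_mem _
    obtain ⟨r, hr, hrk, hwr⟩ := hB.cover_even he h hw.2 h0
    rw [hB.no_comm_even he h hc hr hk hrk (hB.comm_of_fix hr hwr h0 hw.1)]
    exact hwr
  have h2 := AddSubgroup.eq_of_le_of_card_ge h1
    (by rw [hB.card_L_K h hc hk]; exact hB.card_U_inf_W h (hB.card_L_K h hc hk))
  rw [← h2]; exact inf_le_right

/-! ### both characteristics -/

theorem cover {a b : H} (h : NC V a b) {w : V} (hw : w ∈ W V a b) (h0 : w ≠ 0) :
    ∃ c : H, J V c ∧ C V a b ≤ U V c ∧ w ∈ L V c := by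
  rcases hB.ch with h2 | h2
  · exact hB.cover_even h2 h hw h0
  · exact hB.cover_odd h2 h hw

theorem L_le_W {a b c : H} (h : NC V a b) (hc : J V c) (hk : C V a b ≤ U V c) :
    L V c ≤ W V a b := by
  rcases hB.ch with h2 | h2
  · exact hB.L_le_W_even h2 h hc hk
  · exact hB.L_le_W_odd h2 h hk

theorem K_of_mem {a b c : H} (h : NC V a b) (hc : J V c) {w : V} (hw : w ∈ W V a b) (h0 : w ≠ 0)
    (hwc : w ∈ L V c) : C V a b ≤ U V c := by
  obtain ⟨d, hd, hdk, hwd⟩ := hB.cover h hw h0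
  rwa [hB.J_eq hc hd h0 hwc hwd]

theorem W_eq {a b c d : H} (h : NC V a b) (hc : J V c) (hd : J V d) (hck : C V a b ≤ U V c)
    (hdk : C V a b ≤ U V d) (hne : c ≠ d) : L V c ⊔ L V d = W V a b := by
  apply AddSubgroup.eq_of_le_of_card_ge (sup_le (hB.L_le_W h hc hck) (hB.L_le_W h hd hdk))
  rw [card_sup_of_disj (hB.L_disj hc hd hne), hB.card_W h, hB.card_L_K h hc hck,
    hB.card_L_K h hd hdk, sq]

theorem uniq_comm {a b c e e' : H} (h : NC V a b) (hc : J V c) (hck : ¬ C V a b ≤ U V c)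
    (hW : ¬ W V a b ≤ U V c) (he : J V e) (he' : J V e') (hek : C V a b ≤ U V e)
    (hek' : C V a b ≤ U V e') (h1 : c * e = e * c) (h2 : c * e' = e' * c) : e = e' := by
  by_contra hne
  apply hW
  rw [← hB.W_eq h he he' hek hek' hne]
  exact sup_le (hB.L_le_U he hc (by rintro rfl; exact hck hek) h1.symm)
    (hB.L_le_U he' hc (by rintro rfl; exact hck hek') h2.symm)

omit [Finite V] [Finite H] in
theorem exists_nc {a b c : H} (h : NC V a b) (hc : J V c) (hW : ¬ W V a b ≤ U V c) :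
    ∃ e : H, C V a b ≤ U V e ∧ NC V c e := by
  by_cases h1 : c * a = a * c
  · exact ⟨b, inf_le_right, ⟨hc, h.hb, fun h2 => hW (hB.W_le_U h hc h1 h2)⟩⟩
  · exact ⟨a, inf_le_left, ⟨hc, h.ha, h1⟩⟩

theorem exists_comm {a b c : H} (h : NC V a b) (hq : Nat.card (L V c) = Nat.card (L V a)) :
    ∃ e : H, J V e ∧ C V a b ≤ U V e ∧ c * e = e * c := by
  have h1 := hB.card_U_inf_W h hq
  have h2 := hB.one_lt_card_L (V := V) h.ha.1
  obtain ⟨x, hx, h0⟩ : ∃ x ∈ U V c ⊓ W V a b, x ≠ 0 := by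
    by_contra hn
    push Not at hn
    rw [(AddSubgroup.eq_bot_iff_forall _).2 hn, AddSubgroup.card_bot] at h1
    omega
  obtain ⟨e, he, hek, hxe⟩ := hB.cover h hx.2 h0
  exact ⟨e, he, hek, hB.comm_of_fix he hxe h0 hx.1⟩

end Bin2

end H79.BA
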