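import Mathlib

set_option autoImplicit false

namespace H79.BA

variable {V : Type*} [AddCommGroup V] {H : Type*} [Group H] [DistribMulAction H V]

theorem irr_of_semiregular [Finite V] [Finite H] (A : Subgroup H) (q : ℕ) (hV : Nat.card V = q ^ 2)
    (hA : Nat.card A = q + 1) (hsr : ∀ x ∈ A, ∀ v : V, x • v = v → x = 1 ∨ v = 0)
    (P : AddSubgroup V) (hP : ∀ x ∈ A, ∀ v ∈ P, x • v ∈ P) : P = ⊥ ∨ P = ⊤ := by
  by_contra hn
  push Not at hn
  obtain ⟨x, hx, hx0⟩ : ∃ x ∈ P, x ≠ 0 := by
    by_contra h; push Not at h; exact hn.1 ((AddSubgroup.eq_bot_iff_forall _).2 h)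
  obtain ⟨y, hy⟩ : ∃ y, y ∉ P := by
    by_contra h; push Not at h; exact hn.2 ((AddSubgroup.eq_top_iff' _).2 h)
  have h1 : q + 1 ≤ Nat.card P := by
    rw [← hA]
    refine Nat.card_le_card_of_injective (fun s : A => (⟨(s : H) • x, hP _ s.2 _ hx⟩ : P)) ?_
    intro s t e
    have e' : (s : H) • x = (t : H) • x := congrArg Subtype.val e
    rcases hsr ((t : H)⁻¹ * s) (A.mul_mem (A.inv_mem t.2) s.2) x
      (by rw [mul_smul, e', inv_smul_smul]) with h | h
    · exact Subtype.ext (inv_mul_eq_one.1 h).symm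
    · exact (hx0 h).elim
  have h2 : q + 1 ≤ P.index := by
    rw [← hA]
    refine Nat.card_le_card_of_injective (fun s : A => (((s : H) • y : V) : V ⧸ P)) ?_
    intro s t e
    have e' : -((s : H) • y) + (t : H) • y ∈ P := QuotientAddGroup.eq.1 e
    by_contra hne
    have hm : (s : H)⁻¹ * t ∈ A := A.mul_mem (A.inv_mem s.2) t.2
    have h3 : ((s : H)⁻¹ * t) • y - y ∈ P := by
      have := hP _ (A.inv_mem s.2) _ e'
      rw [smul_add, smul_neg, inv_smul_smul, ← mul_smul] at this
      convert this using 1; abel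
    have hτ : (s : H)⁻¹ * t ≠ 1 := fun h => hne (Subtype.ext (inv_mul_eq_one.1 h))
    let f : P → P := fun z => ⟨((s : H)⁻¹ * t) • (z : V) - z, P.sub_mem (hP _ hm _ z.2) z.2⟩
    have key : ∀ u v : V, ((s : H)⁻¹ * t) • u - u = ((s : H)⁻¹ * t) • v - v → u = v := by
      intro u v e
      rcases hsr _ hm (u - v) (by
        rw [smul_sub]
        have : ((s : H)⁻¹ * t) • u = ((s : H)⁻¹ * t) • v - v + u := by rw [← e]; abel
        rw [this]; abel) with h | h
      · exact (hτ h).elim
      · exact sub_eq_zero.1 h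
    have hf : Function.Injective f := fun u v e => Subtype.ext (key _ _ (congrArg Subtype.val e))
    obtain ⟨z, hz⟩ := Finite.surjective_of_injective hf ⟨_, h3⟩
    exact hy (key _ _ (congrArg Subtype.val hz) ▸ z.2)
  have h3 := P.card_mul_index
  rw [hV] at h3
  nlinarith [Nat.mul_le_mul h1 h2]

open scoped IsMulCommutative in
theorem field_of [Finite V] (A : Set H) (a : H) (q : ℕ) (hV : Nat.card V = q ^ 2)
    (hcomm : ∀ x ∈ A, ∀ y ∈ A, x * y = y * x) (hpow : ∀ x ∈ A, x ^ (q + 1) = 1)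
    (hinv : ∀ x ∈ A, a * x * a = x⁻¹) (haa : a * a = 1)
    (hirr : ∀ P : AddSubgroup V, (∀ x ∈ A, ∀ v ∈ P, x • v ∈ P) → P = ⊥ ∨ P = ⊤)
    (x0 : V) (hx0 : x0 ≠ 0) (hax0 : a • x0 = x0) :
    ∃ (E : Type) (_ : Field E) (_ : Fintype E) (p m : ℕ) (_ : Fact p.Prime) (_ : CharP E p)
      (e : V ≃+ E), q = p ^ m ∧ (∀ x ∈ A, ∃ α : E, α ^ (q + 1) = 1 ∧ ∀ v, e (x • v) = α * e v) ∧
      ∀ v, e (a • v) = e v ^ q := by
  classical
  let ρ : H →* AddMonoid.End V := DistribMulAction.toAddMonoidEnd H V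
  have hρ : ∀ (h : H) (v : V), ρ h v = h • v := fun _ _ => rfl
  let R : Subring (AddMonoid.End V) := Subring.closure (ρ '' A)
  have hRc : IsMulCommutative R := Subring.isMulCommutative_closure (by
    rintro _ ⟨x, hx, rfl⟩ _ ⟨y, hy, rfl⟩
    rw [← map_mul, ← map_mul, hcomm x hx y hy])
  have hmem : ∀ x ∈ A, ρ x ∈ R := fun x hx => Subring.subset_closure ⟨x, hx, rfl⟩
  have hcm : ∀ r : R, ∀ x ∈ A, ∀ v : V, (r : AddMonoid.End V) (x • v) = x • (r : AddMonoid.End V) v := by
    intro r x hx v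
    have : (r * ⟨ρ x, hmem x hx⟩ : R) = ⟨ρ x, hmem x hx⟩ * r := mul_comm _ _
    exact congrArg (fun t : R => (t : AddMonoid.End V) v) this
  have hinj : ∀ r : R, ∀ v : V, (r : AddMonoid.End V) v = 0 → r = 0 ∨ v = 0 := by
    intro r v hv
    rcases hirr (AddMonoidHom.ker (r : AddMonoid.End V)) (fun x hx w hw => by
      exact (hcm r x hx w).trans (by rw [show (r : AddMonoid.End V) w = 0 from hw, smul_zero])) with h | h
    · right
      have : v ∈ AddMonoidHom.ker (r : AddMonoid.End V) := hv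
      rwa [h] at this
    · left
      apply Subtype.ext
      ext w
      have : w ∈ AddMonoidHom.ker (r : AddMonoid.End V) := by rw [h]; trivial
      exact this
  let ev : R →+ V :=
    { toFun := fun r => (r : AddMonoid.End V) x0
      map_zero' := rfl
      map_add' := fun _ _ => rfl }
  have hev : ∀ r : R, ev r = (r : AddMonoid.End V) x0 := fun _ => rfl
  have hevi : Function.Injective ev := by
    rw [injective_iff_map_eq_zero]
    intro r hr
    exact (hinj r x0 hr).resolve_right hx0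
  have hevs : Function.Surjective ev := by
    rcases hirr ev.range (by
      rintro x hx _ ⟨r, rfl⟩
      exact ⟨⟨ρ x, hmem x hx⟩ * r, rfl⟩) with h | h
    · have : x0 ∈ ev.range := ⟨1, rfl⟩
      rw [h] at this
      exact (hx0 this).elim
    · exact AddMonoidHom.range_eq_top.1 h
  have hfin : Finite R := Finite.of_injective _ hevi
  have hnt : Nontrivial R := ⟨⟨0, 1, fun e => hx0 (by
    have := congrArg ev e
    exact this.symm)⟩⟩
  have hnz : NoZeroDivisors R := ⟨fun {r s} e => by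
    have : (r : AddMonoid.End V) ((s : AddMonoid.End V) x0) = 0 := congrArg ev e
    rcases hinj r _ this with h | h
    · exact Or.inl h
    · exact Or.inr ((hinj s _ h).resolve_right hx0)⟩
  have hdom : IsDomain R := NoZeroDivisors.to_isDomain R
  letI : Field R := (Finite.isField_of_domain R).toField
  have := Fintype.ofFinite R
  obtain ⟨p, hp, n, hpp, hn⟩ := FiniteField.card' R
  have hF : Fact p.Prime := ⟨hpp⟩
  have hcard : Nat.card R = q ^ 2 := by rw [← hV]; exact Nat.card_congr (Equiv.ofBijective ev ⟨hevi, hevs⟩)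
  obtain ⟨m, -, hm⟩ := (Nat.dvd_prime_pow hpp).1 (show q ∣ p ^ (n : ℕ) by
    rw [← hn, ← Nat.card_eq_fintype_card, hcard]; exact dvd_pow_self q two_ne_zero)
  have := Fintype.ofFinite (GaloisField p n)
  let θ : R ≃+* GaloisField p n := FiniteField.ringEquivOfCardEq (by
    rw [hn, ← Nat.card_eq_fintype_card, GaloisField.card p n n.ne_zero])
  let e0 : R ≃+ V := AddEquiv.ofBijective ev ⟨hevi, hevs⟩
  have hfrob : ∀ (t : AddMonoid.End V) (ht : t ∈ R),
      ρ a * t * ρ a = (((⟨t, ht⟩ : R) ^ q : R) : AddMonoid.End V) := by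
    intro t ht
    have haa' : ρ a * ρ a = 1 := by rw [← map_mul, haa, map_one]
    have hq0 : q ≠ 0 := by rw [hm]; exact pow_ne_zero _ hpp.ne_zero
    induction ht using Subring.closure_induction with
    | mem x hx =>
      obtain ⟨y, hy, rfl⟩ := hx
      rw [← map_mul, ← map_mul, hinv y hy]
      change _ = ρ y ^ q
      rw [← map_pow]
      congr 1
      exact inv_eq_of_mul_eq_one_right (by rw [← pow_succ', hpow y hy])
    | zero =>
      change _ = (0 : AddMonoid.End V) ^ q
      rw [zero_pow hq0, mul_zero, zero_mul]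
    | one =>
      change _ = (1 : AddMonoid.End V) ^ q
      rw [one_pow, mul_one, haa']
    | add x y hx hy ihx ihy =>
      rw [mul_add, add_mul, ihx, ihy]
      have : ((⟨x, hx⟩ : R) + ⟨y, hy⟩) ^ q = (⟨x, hx⟩ : R) ^ q + (⟨y, hy⟩ : R) ^ q := by
        rw [hm]; exact add_pow_char_pow _ _ p m
      exact (congrArg Subtype.val this).symm
    | neg x hx ihx =>
      rw [mul_neg, neg_mul, ihx]
      have : (-(⟨x, hx⟩ : R)) ^ q = -(⟨x, hx⟩ : R) ^ q := by
        rw [hm, neg_pow, neg_one_pow_char_pow, neg_one_mul]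
      exact (congrArg Subtype.val this).symm
    | mul x y hx hy ihx ihy =>
      have e1 : ρ a * (x * y) * ρ a = (ρ a * x * ρ a) * (ρ a * y * ρ a) := by
        calc ρ a * (x * y) * ρ a = ρ a * x * (ρ a * ρ a) * y * ρ a := by
              rw [haa']; simp only [mul_assoc, mul_one]
          _ = _ := by simp only [mul_assoc]
      rw [e1, ihx, ihy]
      have : ((⟨x, hx⟩ : R) * ⟨y, hy⟩) ^ q = (⟨x, hx⟩ : R) ^ q * (⟨y, hy⟩ : R) ^ q := mul_pow _ _ _
      exact (congrArg Subtype.val this).symm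
  refine ⟨GaloisField p n, inferInstance, inferInstance, p, m, hF, inferInstance,
    e0.symm.trans θ.toAddEquiv, hm, fun x hx => ⟨θ ⟨ρ x, hmem x hx⟩, ?_, fun v => ?_⟩, fun v => ?_⟩
  · rw [← map_pow, ← map_one θ]
    congr 1
    apply Subtype.ext
    change ρ x ^ (q + 1) = 1
    rw [← map_pow, hpow x hx, map_one]
  · obtain ⟨r, rfl⟩ := e0.surjective v
    have : x • e0 r = e0 (⟨ρ x, hmem x hx⟩ * r) := rfl
    rw [this]
    simp
  · obtain ⟨r, rfl⟩ := e0.surjective v
    have : a • e0 r = e0 (r ^ q) := by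
      have h1 := congrArg (fun t : AddMonoid.End V => t x0) (hfrob r r.2)
      change a • (r : AddMonoid.End V) (a • x0) = _ at h1
      rw [hax0] at h1
      exact h1
    rw [this]
    simp

end H79.BA
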