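import Mathlib
import Cfsg.Agent.Lib.BinAff.Even

set_option autoImplicit false

namespace H79.BA

variable {V : Type*} [AddCommGroup V] {H : Type*} [Group H] [DistribMulAction H V]

theorem card_ne_zero_sub [Finite V] (P : AddSubgroup V) :
    Nat.card {y : V // y ∈ P ∧ y ≠ 0} + 1 = Nat.card P := by
  classical
  rw [← Finite.card_option]
  refine Nat.card_congr (Equiv.ofBijective
    (fun o : Option {y : V // y ∈ P ∧ y ≠ 0} => o.elim (0 : P) fun y => ⟨y.1, y.2.1⟩) ⟨?_, ?_⟩)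
  · rintro (_ | x) (_ | y) e
    · rfl
    · exact (y.2.2 (congrArg Subtype.val e).symm).elim
    · exact (x.2.2 (congrArg Subtype.val e)).elim
    · have e' : x.1 = y.1 := congrArg (fun t : P => (t : V)) e
      exact congrArg some (Subtype.ext e')
  · rintro ⟨y, hy⟩
    by_cases h0 : y = 0
    · exact ⟨none, Subtype.ext h0.symm⟩
    · exact ⟨some ⟨y, hy, h0⟩, rfl⟩

namespace Bin

variable [Finite V] [Finite H] (hB : Bin H V)
include hB

theorem count_lines (P : AddSubgroup V) (q : ℕ)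
    (hP : ∀ y ∈ P, y ≠ 0 → ∃ e : H, J V e ∧ L V e ≤ P ∧ y ∈ L V e ∧ Nat.card (L V e) = q) :
    Nat.card {e : H // J V e ∧ L V e ≤ P} * (q - 1) + 1 = Nat.card P := by
  classical
  rw [← card_ne_zero_sub P]
  congr 1
  have := Fintype.ofFinite {e : H // J V e ∧ L V e ≤ P}
  have h1 : Nat.card (Σ e : {e : H // J V e ∧ L V e ≤ P}, {y : V // y ∈ L V e.1 ∧ y ≠ 0}) =
      Nat.card {y : V // y ∈ P ∧ y ≠ 0} := by
    refine Nat.card_congr (Equiv.ofBijective (fun t => ⟨t.2.1, t.1.2.2 t.2.2.1, t.2.2.2⟩) ⟨?_, ?_⟩)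
    · rintro ⟨e, y⟩ ⟨e', y'⟩ h
      have h' : y.1 = y'.1 := congrArg Subtype.val h
      have he : e = e' := Subtype.ext (hB.J_eq e.2.1 e'.2.1 y.2.2 y.2.1 (h' ▸ y'.2.1))
      subst he
      rw [Subtype.ext h']
    · rintro ⟨y, hy, h0⟩
      obtain ⟨e, he, hL, hye, -⟩ := hP y hy h0
      exact ⟨⟨⟨e, he, hL⟩, ⟨y, hye, h0⟩⟩, rfl⟩
  rw [← h1, Nat.card_sigma, Finset.sum_congr rfl (g := fun _ => q - 1)]
  · simp
  · rintro ⟨e, he, hL⟩ -
    obtain ⟨u, hu, h0⟩ := hB.exists_L (V := V) he.1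
    obtain ⟨e', he', -, hue, hq⟩ := hP u (hL hu) h0
    have := card_ne_zero_sub (L V e)
    rw [hB.J_eq he he' h0 hu hue, hq] at this
    rw [← hB.J_eq he he' h0 hu hue] at this
    simp only
    omega

omit [Finite V] in
theorem count_orbit (P : AddSubgroup V)
    (hP : ∀ y ∈ P, y ≠ 0 → ∃ e : H, J V e ∧ L V e ≤ P ∧ y ∈ L V e) {x : V} (hx : x ∈ P) :
    Nat.card {y : V // y ∈ P ∧ Cj H x y} + Nat.card {e : H // (J V e ∧ L V e ≤ P) ∧ e • x = x} =
      Nat.card {e : H // J V e ∧ L V e ≤ P} + 1 := by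
  classical
  have h1 : Nat.card {y : V // y ∈ P ∧ Cj H x y} =
      Nat.card {e : H // (J V e ∧ L V e ≤ P) ∧ ¬ e • x = x} + 1 := by
    rw [← Finite.card_option]
    symm
    refine Nat.card_congr (Equiv.ofBijective
      (fun o : Option {e : H // (J V e ∧ L V e ≤ P) ∧ ¬ e • x = x} =>
        o.elim (⟨x, hx, Cj.refl x⟩ : {y : V // y ∈ P ∧ Cj H x y})
          fun e => ⟨e.1 • x, smul_mem_of_L_le e.2.1.2 hx, e.1, rfl⟩) ⟨?_, ?_⟩)
    · rintro (_ | e) (_ | e') h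
      · rfl
      · exact (e'.2.2 (congrArg Subtype.val h).symm).elim
      · exact (e.2.2 (congrArg Subtype.val h)).elim
      · have h' : e.1 • x = e'.1 • x := congrArg Subtype.val h
        exact congrArg some (Subtype.ext (hB.J_eq e.2.1.1 e'.2.1.1 (sub_ne_zero.2 e.2.2)
          (sub_mem_L _ _) (h' ▸ sub_mem_L _ _)))
    · rintro ⟨y, hy, hxy⟩
      by_cases h0 : y = x
      · exact ⟨none, Subtype.ext h0.symm⟩
      · obtain ⟨e, he, hL, hye⟩ := hP (y - x) (P.sub_mem hy hx) (sub_ne_zero.2 h0)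
        have := hB.J_real he hxy h0 hye
        exact ⟨some ⟨e, ⟨he, hL⟩, by rw [this]; exact h0⟩, Subtype.ext this⟩
  have h2 := Nat.card_congr (Equiv.sumCompl (fun e : {e : H // J V e ∧ L V e ≤ P} => e.1 • x = x))
  rw [Nat.card_sum, Nat.card_congr (Equiv.subtypeSubtypeEquivSubtypeInter
      (fun e : H => J V e ∧ L V e ≤ P) (fun e => e • x = x)),
    Nat.card_congr (Equiv.subtypeSubtypeEquivSubtypeInter
      (fun e : H => J V e ∧ L V e ≤ P) (fun e => ¬ e • x = x))] at h2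
  omega

omit hB [Finite H] in
theorem dvd_of_orbits (P : AddSubgroup V) (n : ℕ)
    (h : ∀ x ∈ P, x ≠ 0 → Nat.card {y : V // y ∈ P ∧ Cj H x y} = n) : n ∣ Nat.card P - 1 := by
  classical
  have := Fintype.ofFinite V
  rw [← card_ne_zero_sub P, Nat.add_sub_cancel, Nat.subtype_card
    (Finset.univ.filter fun y : V => y ∈ P ∧ y ≠ 0) (by simp),
    Finset.card_eq_sum_card_image (fun x : V => {y : V | Cj H x y})]
  apply Finset.dvd_sum
  intro b hb
  obtain ⟨x, hx, rfl⟩ := Finset.mem_image.1 hb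
  simp only [Finset.mem_filter, Finset.mem_univ, true_and] at hx
  rw [← h x hx.1 hx.2, Nat.subtype_card
    (((Finset.univ.filter fun y : V => y ∈ P ∧ y ≠ 0)).filter
      fun a => {y : V | Cj H a y} = {y : V | Cj H x y})]
  intro y
  simp only [Finset.mem_filter, Finset.mem_univ, true_and]
  constructor
  · rintro ⟨⟨h1, -⟩, h2⟩
    refine ⟨h1, ?_⟩
    have : y ∈ {z : V | Cj H y z} := Cj.refl y
    rwa [h2] at this
  · rintro ⟨h1, h2⟩
    refine ⟨⟨h1, ?_⟩, ?_⟩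
    · rintro rfl
      obtain ⟨g, hg⟩ := h2
      exact hx.2 ((smul_eq_zero_iff_eq g).1 hg)
    · ext z
      exact ⟨fun h3 => h2.trans h3, fun h3 => h2.symm.trans h3⟩

/-- a three-dimensional space cannot be covered by lines in odd characteristic -/
theorem no_cover3 (ho : ∀ x : V, x + x = 0 → x = 0) (X : AddSubgroup V) (q : ℕ) (hq : 1 < q)
    (hX : Nat.card X = q ^ 3)
    (hP : ∀ y ∈ X, y ≠ 0 → ∃ e : H, J V e ∧ L V e ≤ X ∧ y ∈ L V e ∧ Nat.card (L V e) = q) :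
    False := by
  have h1 := hB.count_lines X q hP
  obtain ⟨k, rfl⟩ : ∃ k, q = k + 1 := ⟨q - 1, by omega⟩
  have hk : 0 < k := by omega
  rw [hX, Nat.add_sub_cancel] at h1
  have h2 : Nat.card {e : H // J V e ∧ L V e ≤ X} = (k + 1) ^ 2 + (k + 1) + 1 := by
    apply Nat.eq_of_mul_eq_mul_right hk
    nlinarith
  have h3 := dvd_of_orbits (H := H) X ((k + 1) ^ 2 + 1) (by
    intro x hx h0
    have h4 := hB.count_orbit X (fun y hy hy0 => by
      obtain ⟨e, h1, h2, h3, -⟩ := hP y hy hy0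
      exact ⟨e, h1, h2, h3⟩) hx
    obtain ⟨e, he, heX, hxe, hq⟩ := hP x hx h0
    have hLU : L V e ⊓ U V e = ⊥ := by
      rw [eq_bot_iff]
      rintro u ⟨hu1, hu2⟩
      have := hB.J_neg he hu1
      rw [mem_U.1 hu2] at this
      exact ho u (by rw [← neg_eq_iff_add_eq_zero]; exact this.symm)
    have hfix : ∀ d : H, J V d → d • x = x → L V d ≤ U V e := by
      intro d hd hdx
      refine hB.L_le_U hd he ?_ (hB.comm_of_fix he hxe h0 (mem_U.2 hdx))
      rintro rfl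
      have : x ∈ L V d ⊓ U V d := ⟨hxe, mem_U.2 hdx⟩
      rw [hLU] at this
      exact h0 this
    have hc : Nat.card (U V e ⊓ X : AddSubgroup V) = (k + 1) ^ 2 := by
      apply le_antisymm
      · have := card_mul_le_of_disj (A := L V e) (B := U V e ⊓ X) (P := X)
          (by rw [← inf_assoc, hLU, bot_inf_eq]) heX inf_le_right
        rw [hq, hX, pow_succ'] at this
        exact Nat.le_of_mul_le_mul_left this (by omega)
      · have := card_le_inf_mul_index (U V e) X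
        rw [index_U, hq, hX, pow_succ] at this
        exact Nat.le_of_mul_le_mul_right this (by omega)
    have h5 := hB.count_lines (U V e ⊓ X) (k + 1) (by
      intro y hy hy0
      obtain ⟨d, hd, hdX, hyd, hdq⟩ := hP y hy.2 hy0
      refine ⟨d, hd, le_inf (hB.L_le_U hd he ?_ (hB.comm_of_fix hd hyd hy0 hy.1).symm) hdX, hyd, hdq⟩
      rintro rfl
      have : y ∈ L V d ⊓ U V d := ⟨hyd, hy.1⟩
      rw [hLU] at this
      exact hy0 this)
    rw [hc, Nat.add_sub_cancel] at h5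
    have h6 : Nat.card {d : H // J V d ∧ L V d ≤ U V e ⊓ X} = k + 2 := by
      apply Nat.eq_of_mul_eq_mul_right hk
      nlinarith
    have h7 : Nat.card {d : H // (J V d ∧ L V d ≤ X) ∧ d • x = x} =
        Nat.card {d : H // J V d ∧ L V d ≤ U V e ⊓ X} := by
      refine Nat.card_congr (Equiv.subtypeEquivRight fun d => ⟨?_, ?_⟩)
      · rintro ⟨⟨hd, hdX⟩, hdx⟩
        exact ⟨hd, le_inf (hfix d hd hdx) hdX⟩
      · rintro ⟨hd, hdX⟩
        refine ⟨⟨hd, hdX.trans inf_le_right⟩, mem_U.1 ?_⟩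
        obtain ⟨u, hu, hu0⟩ := hB.exists_L (V := V) hd.1
        refine hB.L_le_U he hd ?_ (hB.comm_of_fix hd hu hu0 (hdX hu).1) hxe
        rintro rfl
        have : u ∈ L V e ⊓ U V e := ⟨hu, (hdX hu).1⟩
        rw [hLU] at this
        exact hu0 this
    rw [h7, h6, h2] at h4
    omega)
  rw [hX] at h3
  have h4 : (k + 1) ^ 2 + 1 ∣ k + 2 := by
    have e : (k + 1) * ((k + 1) ^ 2 + 1) = ((k + 1) ^ 3 - 1) + (k + 2) := by
      have : 0 < (k + 1) ^ 3 := by positivity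
      zify [this]; ring
    exact (Nat.dvd_add_right h3).1 (e ▸ dvd_mul_left _ _)
  have := Nat.le_of_dvd (by omega) h4
  nlinarith

end Bin

namespace Bin2

variable [Finite V] [Finite H] (hB : Bin2 H V)
include hB

theorem L_inf_W {a b c : H} (h : NC V a b) (hc : J V c) (hck : ¬ C V a b ≤ U V c) :
    W V a b ⊓ L V c = ⊥ := by
  rw [eq_bot_iff]
  intro z hz
  by_contra h0
  exact hck (hB.K_of_mem h hc hz.1 h0 hz.2)

theorem rank3_even (he : ∀ x : V, x + x = 0) {a b c : H} (h : NC V a b) (hc : J V c)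
    (hck : ¬ C V a b ≤ U V c) : W V a b ≤ U V c := by
  by_contra hW
  obtain ⟨a1, ha1k, hca1⟩ := hB.exists_nc h hc hW
  have ha1 := hca1.hb
  have hq1 := hB.card_L_K h ha1 ha1k
  have hqc : Nat.card (L V c) = Nat.card (L V a) := (hB.card_L_eq hca1).trans hq1
  obtain ⟨a0, ha0, ha0k, hca0⟩ := hB.exists_comm h hqc
  have hq0 := hB.card_L_K h ha0 ha0k
  have hne0 : a0 ≠ c := by rintro rfl; exact hck ha0k
  have h01 : NC V a0 a1 := ⟨ha0, ha1, fun e => hca1.hn (by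
    rw [← hB.no_comm_even he h ha0 ha1 ha0k ha1k e]; exact hca0)⟩
  obtain ⟨a2, ha2, ha2k, e1⟩ := hB.exists_conj he h01
  obtain ⟨c2, hc2, hc2k, e2⟩ := hB.exists_conj he hca1
  rw [hB.C_eq h h01 ha0k ha1k] at ha2k
  have hX2 : L V a2 ≤ W V a b ⊔ L V c := (hB.L_le_W h ha2 ha2k).trans le_sup_left
  have hX2' : L V c2 ≤ W V a b ⊔ L V c := (hB.L_le_W hca1 hc2 hc2k).trans
    (sup_le le_sup_right ((hB.L_le_W h ha1 ha1k).trans le_sup_left))
  have hg : (c2 * a2) * a0 * (c2 * a2)⁻¹ = c := by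
    calc (c2 * a2) * a0 * (c2 * a2)⁻¹ = c2 * (a2 * a0 * a2⁻¹) * c2⁻¹ := by group
      _ = c2⁻¹ * (c2 * c * c2⁻¹) * c2 := by rw [e1, e2, hB.J_inv hc2]
      _ = c := by group
  have h2 : NC V c2 a2 := by
    refine ⟨hc2, ha2, fun hcm => hne0 ?_⟩
    have hgi : (c2 * a2)⁻¹ = c2 * a2 := by
      rw [mul_inv_rev, hB.J_inv hc2, hB.J_inv ha2, hcm]
    have e3 : a0 * (c2 * a2) * (a0 * (c2 * a2)) = a0 * c := by
      rw [← hg, hgi]; simp only [mul_assoc]
    have h4 := hB.no_four he (h := a0 * (c2 * a2)) (by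
      rw [e3]
      calc a0 * c * (a0 * c) = a0 * (c * a0) * c := by simp only [mul_assoc]
        _ = a0 * a0 * (c * c) := by rw [hca0]; simp only [mul_assoc]
        _ = 1 := by rw [hB.J_sq ha0, hB.J_sq hc, one_mul])
    rw [e3] at h4
    rw [← hB.J_inv ha0]; exact inv_eq_of_mul_eq_one_right h4
  have hgk : C V c2 a2 ≤ U V (c2 * a2) := le_U_mul inf_le_left inf_le_right
  have hn0 : ¬ C V c2 a2 ≤ U V a0 := fun hk =>
    hne0 (hB.no_comm_even he h2 ha0 hc hk (hg ▸ le_U_conj hgk hk) hca0.symm)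
  have hnc : ¬ C V c2 a2 ≤ U V c := fun hk => hn0 (by
    have := le_U_conj (le_U_inv hgk) hk
    rwa [← hg, show (c2 * a2)⁻¹ * (c2 * a2 * a0 * (c2 * a2)⁻¹) * (c2 * a2)⁻¹⁻¹ = a0 by group] at this)
  obtain ⟨e, hJe, hek, hae⟩ := hB.exists_comm h2 (c := a0)
    (by rw [hq0, hB.card_L_eq h2, hB.card_L_K h ha2 ha2k])
  have hY : L V a0 ⊔ L V c = U V a0 ⊓ (W V a b ⊔ L V c) := by
    apply AddSubgroup.eq_of_le_of_card_ge
    · exact sup_le (le_inf (hB.quad he (hB.J_sq ha0) (hB.J_sq ha0) rfl)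
        ((hB.L_le_W h ha0 ha0k).trans le_sup_left))
        (le_inf (hB.L_le_U hc ha0 hne0.symm hca0) le_sup_right)
    · have := card_mul_le_of_disj (A := L V a1) (B := U V a0 ⊓ (W V a b ⊔ L V c))
        (P := W V a b ⊔ L V c) (by rw [← inf_assoc, hB.L_inf_U ha1 h01.hn.symm, bot_inf_eq])
        ((hB.L_le_W h ha1 ha1k).trans le_sup_left) inf_le_right
      rw [card_sup_of_disj (hB.L_inf_W h hc hck), hB.card_W h, hq1, hqc, mul_comm (_ ^ 2)] at this
      rw [card_sup_of_disj (hB.L_disj ha0 hc hne0), hq0, hqc, ← sq]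
      exact Nat.le_of_mul_le_mul_left this Nat.card_pos
  have heW := hB.L_le_W h2 hJe hek
  have hec : L V e ≤ U V c := by
    have h3 : L V e ≤ L V a0 ⊔ L V c := by
      rw [hY]
      exact le_inf (hB.L_le_U hJe ha0 (by rintro rfl; exact hn0 hek) hae.symm)
        (heW.trans (sup_le hX2' hX2))
    exact h3.trans (sup_le (hB.L_le_U ha0 hc hne0 hca0.symm)
      (hB.quad he (hB.J_sq hc) (hB.J_sq hc) rfl))
  obtain ⟨x, hx, hx0⟩ := hB.exists_L (V := V) hJe.1
  have hWc : ¬ W V c2 a2 ≤ U V c := by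
    intro hle
    obtain ⟨u, hu, hu0⟩ := hB.exists_L (V := V) hc2.1
    have := hB.comm_of_fix hc2 hu hu0 (hle (AddSubgroup.mem_sup_left hu))
    apply hca1.ne
    rw [← e2, ← this]; group
  have h5 := hB.uniq_comm h2 hc hnc hWc (hJe.conj (c2 * a2)) hJe (le_U_conj hgk hek) hek (by
    calc c * (c2 * a2 * e * (c2 * a2)⁻¹) = (c2 * a2) * (a0 * e) * (c2 * a2)⁻¹ := by
          rw [← hg]; group
      _ = (c2 * a2) * (e * a0) * (c2 * a2)⁻¹ := by rw [hae]
      _ = _ := by rw [← hg]; group) (hB.comm_of_fix hJe hx hx0 (hec hx))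
  have hLU := hB.quad he (hB.J_sq hJe) (hB.J_sq hJe) rfl
  have h6 := hB.axis_even he h2 hJe hek hgk (hLU hx) (hLU (h5 ▸ smul_mem_L (c2 * a2) hx))
  have h7 : x ∈ U V (c2 * a2) := mem_U.2 h6
  rw [hB.U_mul hc2 ha2 h2.ne] at h7
  exact hx0 (hB.eq_zero h2 (heW hx) h7)

theorem rank3_odd (ho : ∀ x : V, x + x = 0 → x = 0) {a b c : H} (h : NC V a b) (hc : J V c)
    (hck : ¬ C V a b ≤ U V c) : W V a b ≤ U V c := by
  by_contra hW
  obtain ⟨a1, ha1k, hca1⟩ := hB.exists_nc h hc hW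
  have hqc : Nat.card (L V c) = Nat.card (L V a) :=
    (hB.card_L_eq hca1).trans (hB.card_L_K h hca1.hb ha1k)
  have main : ∀ d : H, J V d → C V a b ≤ U V d → c * d ≠ d * c → ∀ w ∈ L V d, ∀ u ∈ L V c,
      w + u ≠ 0 → ∃ e : H, J V e ∧ L V e ≤ W V a b ⊔ L V c ∧ w + u ∈ L V e ∧
        Nat.card (L V e) = Nat.card (L V a) := by
    intro d hd hdk hn w hw u hu h0
    have h1 : NC V c d := ⟨hc, hd, hn⟩
    obtain ⟨e, he, hek, hm⟩ := hB.cover h1 (w := w + u)
      (by rw [add_comm]; exact AddSubgroup.add_mem_sup hu hw) h0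
    exact ⟨e, he, (hB.L_le_W h1 he hek).trans
      (sup_le le_sup_right ((hB.L_le_W h hd hdk).trans le_sup_left)), hm,
      (hB.card_L_K h1 he hek).trans hqc⟩
  refine hB.no_cover3 ho (W V a b ⊔ L V c) (Nat.card (L V a)) (hB.one_lt_card_L h.ha.1)
    (by rw [card_sup_of_disj (hB.L_inf_W h hc hck), hB.card_W h, hqc, pow_succ _ 2]) ?_
  intro y hy hy0
  obtain ⟨w, hw, u, hu, rfl⟩ := AddSubgroup.mem_sup.1 hy
  by_cases hw0 : w = 0
  · exact ⟨c, hc, le_sup_right, by rw [hw0, zero_add]; exact hu, hqc⟩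
  obtain ⟨d, hd, hdk, hwd⟩ := hB.cover h hw hw0
  by_cases hcd : c * d = d * c
  swap
  · exact main d hd hdk hcd w hwd u hu hy0
  by_cases hu0 : u = 0
  · exact ⟨d, hd, (hB.L_le_W h hd hdk).trans le_sup_left, by rw [hu0, add_zero]; exact hwd,
      hB.card_L_K h hd hdk⟩
  obtain ⟨d', hd', hdk', hne, hcm, -⟩ := hB.exists_perp ho h hd hdk
  have hcd' : c * d' ≠ d' * c := fun e => hne (hB.uniq_comm h hc hck hW hd' hd hdk' hdk e hcd)
  have hw1 : d' • w = w := mem_U.1 (hB.L_le_U hd hd' hne.symm hcm.symm hwd)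
  have hw' : d' • u - u ≠ 0 := fun e =>
    hcd' (hB.comm_of_fix hc hu hu0 (mem_U.2 (sub_eq_zero.1 e))).symm
  have hnot : w + (d' • u - u) ∉ L V d := by
    intro hm
    exact hne (hB.J_eq hd' hd hw' (sub_mem_L _ _) (by simpa using (L V d).sub_mem hm hwd))
  have hmW : w + (d' • u - u) ∈ W V a b :=
    AddSubgroup.add_mem _ hw (hB.L_le_W h hd' hdk' (sub_mem_L _ _))
  obtain ⟨d2, hd2, hd2k, hm2⟩ := hB.cover h hmW (fun e => hnot (e ▸ zero_mem _))
  have hcd2 : c * d2 ≠ d2 * c := fun e =>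
    hnot (hB.uniq_comm h hc hck hW hd2 hd hd2k hdk e hcd ▸ hm2)
  have e1 : w + (d' • u - u) + u = d' • (w + u) := by rw [smul_add, hw1]; abel
  obtain ⟨e, he, heX, hm, hq⟩ := main d2 hd2 hd2k hcd2 _ hm2 u hu
    (by rw [e1]; exact fun e => hy0 ((smul_eq_zero_iff_eq d').1 e))
  rw [e1] at hm
  have hd'X : L V d' ≤ W V a b ⊔ L V c := (hB.L_le_W h hd' hdk').trans le_sup_left
  refine ⟨d' * e * d'⁻¹, he.conj d', ?_, ?_, ?_⟩
  · intro z hz
    have := smul_mem_L d'⁻¹ hz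
    rw [show d'⁻¹ * (d' * e * d'⁻¹) * d'⁻¹⁻¹ = e by group] at this
    have h2 := smul_mem_of_L_le hd'X (heX this)
    rwa [smul_inv_smul] at h2
  · have := smul_mem_L d' hm
    rwa [hB.J_smul_smul hd'] at this
  · rw [← hq]
    refine Nat.card_congr (Equiv.ofBijective (fun z : L V (d' * e * d'⁻¹) => (⟨d'⁻¹ • (z : V), by
      have := smul_mem_L d'⁻¹ z.2
      rwa [show d'⁻¹ * (d' * e * d'⁻¹) * d'⁻¹⁻¹ = e by group] at this⟩ : L V e)) ⟨?_, ?_⟩)
    · intro z z' hz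
      have : d'⁻¹ • (z : V) = d'⁻¹ • (z' : V) := congrArg Subtype.val hz
      exact Subtype.ext (smul_left_cancel _ this)
    · intro z
      exact ⟨⟨d' • (z : V), smul_mem_L d' z.2⟩, Subtype.ext (inv_smul_smul _ _)⟩

theorem rank3 {a b c : H} (h : NC V a b) (hc : J V c) (hck : ¬ C V a b ≤ U V c) :
    W V a b ≤ U V c := by
  rcases hB.ch with h2 | h2
  · exact hB.rank3_even h2 h hc hck
  · exact hB.rank3_odd h2 h hc hck

end Bin2

end H79.BA
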