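import Mathlib
import Cfsg.Agent.Lib.BinAff.Rank3
import Cfsg.Agent.Lib.BinAff.Fld

set_option autoImplicit false

namespace H79.BA

variable {V : Type*} [AddCommGroup V] {H : Type*} [Group H] [DistribMulAction H V]

/-- irreducibility -/
def Irr (H : Type*) (V : Type*) [AddCommGroup V] [Group H] [DistribMulAction H V] : Prop :=
  ∀ P : AddSubgroup V, (∀ h : H, ∀ x ∈ P, h • x ∈ P) → P = ⊥ ∨ P = ⊤

theorem Bin.bin2 (hB : Bin H V) (hI : Irr H V) {g : H} (hg : g ≠ 1) : Bin2 H V := by
  refine ⟨hB, ?_, ?_⟩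
  · obtain ⟨v, hv⟩ : ∃ v : V, g • v ≠ v := by
      by_contra h; push Not at h; exact hg (hB.faithful g h)
    have hsw : ∀ x y : V, Cj H x y → Cj H (x - y) (y - x) := fun x y h => by
      obtain ⟨k, h1, h2⟩ := hB.swap h
      exact ⟨k, by rw [smul_sub, h1, h2]⟩
    obtain ⟨k, hk⟩ := hB.ext {x | ∃ h : H, x = h • v - v} (fun x => -x) (by
      rintro _ ⟨h, rfl⟩
      simpa using hsw _ _ (Cj.symm ⟨h, rfl⟩)) (by
      rintro _ ⟨h, rfl⟩ _ ⟨h', rfl⟩
      have := hsw (h • v) (h' • v) ⟨h' * h⁻¹, by rw [mul_smul, inv_smul_smul]⟩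
      convert this using 1 <;> abel)
    let P : AddSubgroup V :=
      { carrier := {x | ∀ h : H, k • h • x = -(h • x)}
        zero_mem' := fun h => by simp
        add_mem' := fun {x y} hx hy h => by
          rw [smul_add, smul_add, hx h, hy h]; abel
        neg_mem' := fun {x} hx h => by rw [smul_neg, smul_neg, hx h] }
    have hm : g • v - v ∈ P := fun h => by
      have e : h • (g • v - v) = ((h * g) • v - v) - (h • v - v) := by
        rw [smul_sub, mul_smul]; abel
      rw [e, smul_sub, hk _ ⟨_, rfl⟩, hk _ ⟨_, rfl⟩]; abel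
    rcases hI P (fun h x hx h' => by rw [← mul_smul h' h]; exact hx _) with h | h
    · rw [h] at hm
      exact (hv (sub_eq_zero.1 hm)).elim
    · refine ⟨k, fun x => ?_⟩
      have : x ∈ P := by rw [h]; trivial
      simpa using this 1
  · let P : AddSubgroup V :=
      { carrier := {x | x + x = 0}
        zero_mem' := by simp
        add_mem' := fun {x y} hx hy => by
          have : x + y + (x + y) = (x + x) + (y + y) := by abel
          change _ = _
          rw [this, hx, hy, add_zero]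
        neg_mem' := fun {x} hx => by
          change _ = _
          rw [← neg_add, hx, neg_zero] }
    rcases hI P (fun h x hx => by
      change _ = _
      rw [← smul_add, hx, smul_zero]) with h | h
    · right
      intro x hx
      have : x ∈ P := hx
      rwa [h] at this
    · left
      intro x
      have : x ∈ P := by rw [h]; trivial
      exact this

theorem Bin.pm (hB : Bin H V) (ho : ∀ x : V, x + x = 0 → x = 0) {c h : H} (hc : J V c) {u : V}
    (hu : u ∈ L V c) (hh : h • u ∈ L V c) : h • u = u ∨ h • u = -u := by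
  by_cases h0 : h • u = u
  · exact Or.inl h0
  right
  rw [← hB.J_real hc ⟨h, rfl⟩ h0 ((L V c).sub_mem hh hu), hB.J_neg hc hu]

theorem Bin.pm_all (hB : Bin H V) (ho : ∀ x : V, x + x = 0 → x = 0) {c h : H} (hc : J V c)
    (hh : h * c = c * h) : L V c ≤ U V h ∨ ∀ u ∈ L V c, h • u = -u := by
  have hm : ∀ u ∈ L V c, h • u ∈ L V c := fun u hu => by
    have := smul_mem_L h hu
    rwa [hh, mul_inv_cancel_right] at this
  by_contra hn
  push Not at hn
  obtain ⟨h1, y, hy, h2⟩ := hn
  obtain ⟨x, hx, h3⟩ := SetLike.not_le_iff_exists.1 h1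
  rw [mem_U] at h3
  have h4 := (hB.pm ho hc hx (hm x hx)).resolve_left h3
  have h5 := (hB.pm ho hc hy (hm y hy)).resolve_right h2
  rcases hB.pm ho hc ((L V c).add_mem hx hy) (hm _ ((L V c).add_mem hx hy)) with h6 | h6
  · rw [smul_add, h5, add_left_inj] at h6
    exact h3 h6
  · rw [smul_add, h4, neg_add, add_right_inj] at h6
    exact h2 h6

namespace Bin2

variable [Finite V] [Finite H] (hB : Bin2 H V)
include hB

omit [Finite H] in
theorem perp_odd (ho : ∀ x : V, x + x = 0 → x = 0) {a a' : H} (ha : J V a) (ha' : J V a')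
    (hne : a ≠ a') (hcm : a * a' = a' * a) {x y : V} (hx : x ∈ L V a) (hy : y ∈ L V a')
    (hx0 : x ≠ 0) (hxy : Cj H x y) (hall : ∀ e : H, J V e → e * a = a * e ∨ e * a' = a' * e) :
    False := by
  have hLU := hB.L_le_U ha ha' hne hcm
  have hLU' := hB.L_le_U ha' ha hne.symm hcm.symm
  have hy0 : y ≠ 0 := by
    rintro rfl
    obtain ⟨g, hg⟩ := hxy
    exact hx0 ((smul_eq_zero_iff_eq g).1 hg)
  have hax := hB.J_neg ha hx
  have hay := mem_U.1 (hLU' hy)
  have hbx := mem_U.1 (hLU hx)
  have hby := hB.J_neg ha' hy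
  have hinj : Function.Injective fun v : V => v + v := fun u v e => by
    rw [← sub_eq_zero]
    apply ho
    have e' : u + u = v + v := e
    have : u - v + (u - v) = (u + u) - (v + v) := by abel
    rw [this, e', sub_self]
  obtain ⟨t, ht⟩ := Finite.surjective_of_injective hinj (x - y)
  have ht' : t + t = x - y := ht
  have habt : (a * a') • t = -t := by
    apply hinj
    change (a * a') • t + (a * a') • t = -t + -t
    rw [← smul_add, ← neg_add, ht', mul_smul, smul_sub, hbx, hby, smul_sub, smul_neg, hax, hay]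
    abel
  obtain ⟨g, -, -, h3, h4⟩ := hB.key' (a * a') t
  have hz : (a * a') • t - t = y - x := by
    rw [habt]
    calc -t - t = -(t + t) := by abel
      _ = y - x := by rw [ht']; abel
  rw [hz] at h4
  have hgx : g • x = y := by rw [h4 x (by simpa using hxy)]; abel
  have hgy : g • y = x := by
    have := h4 (-y) (by convert hxy.symm.neg using 1; abel)
    rw [smul_neg, neg_eq_iff_eq_neg] at this
    rw [this]; abel
  have hxy' : x ≠ y := fun e => hne (hB.J_eq ha ha' hx0 hx (e ▸ hy))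
  have hg1 : g ≠ 1 := by rintro rfl; exact hxy' (by simpa using hgx)
  obtain ⟨e, he, hge⟩ := exists_J (V := V) hg1
  have hes : e • (x + y) = x + y := mem_U.1 (hge (mem_U.2 (by rw [smul_add, hgx, hgy, add_comm])))
  have hfix : e • x = x ∧ e • y = y := by
    rcases hall e he with h | h
    · have h1 : e • (-x + y) = -x + y := by
        have : a • (x + y) = -x + y := by rw [smul_add, hax, hay]
        rw [← this, ← mul_smul, h, mul_smul, hes]
      have h2 : e • y = y := by
        apply hinj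
        change e • y + e • y = y + y
        rw [← smul_add, show y + y = (x + y) + (-x + y) by abel, smul_add, hes, h1]
      rw [smul_add, h2, add_left_inj] at hes
      exact ⟨hes, h2⟩
    · have h1 : e • (x + -y) = x + -y := by
        have : a' • (x + y) = x + -y := by rw [smul_add, hbx, hby]
        rw [← this, ← mul_smul, h, mul_smul, hes]
      have h2 : e • x = x := by
        apply hinj
        change e • x + e • x = x + x
        rw [← smul_add, show x + x = (x + y) + (x + -y) by abel, smul_add, hes, h1]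
      rw [smul_add, h2, add_right_inj] at hes
      exact ⟨h2, hes⟩
  have hea : L V a ≤ U V e := hB.L_le_U ha he (by
    rintro rfl
    exact hx0 (ho x (by rw [← neg_eq_iff_add_eq_zero, ← hax, hfix.1])))
    (hB.comm_of_fix ha hx hx0 (mem_U.2 hfix.1)).symm
  have hea' : L V a' ≤ U V e := hB.L_le_U ha' he (by
    rintro rfl
    exact hy0 (ho y (by rw [← neg_eq_iff_add_eq_zero, ← hby, hfix.2])))
    (hB.comm_of_fix ha' hy hy0 (mem_U.2 hfix.2)).symm
  apply he.1
  refine hB.faithful e fun v => ?_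
  have hv : v + (a * a') • v ∈ U V (a * a') := by
    rw [mem_U, smul_add, ← mul_smul, add_comm]
    congr 1
    calc (a * a' * (a * a')) • v = ((a * a) * (a' * a')) • v := by
          congr 1
          calc a * a' * (a * a') = a * (a' * a) * a' := by simp only [mul_assoc]
            _ = _ := by rw [← hcm]; simp only [mul_assoc]
      _ = v := by rw [hB.J_sq ha, hB.J_sq ha', one_mul, one_smul]
  have hv2 : (a * a') • v - v ∈ U V e := by
    have : (a * a') • v - v = (a • a' • v - a' • v) + (a' • v - v) := by rw [mul_smul]; abel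
    rw [this]
    exact AddSubgroup.add_mem _ (hea (sub_mem_L _ _)) (hea' (sub_mem_L _ _))
  apply hinj
  change e • v + e • v = v + v
  rw [← smul_add, show v + v = (v + (a * a') • v) - ((a * a') • v - v) by abel]
  exact mem_U.1 (AddSubgroup.sub_mem _ (hge (h3 hv)) hv2)

omit [Finite V] in
theorem perp_even (he : ∀ x : V, x + x = 0) {a a' : H} (ha : J V a) (ha' : J V a')
    (hne : a ≠ a') (hcm : a * a' = a' * a) {x y : V} (hx : x ∈ L V a) (hy : y ∈ L V a')
    (hx0 : x ≠ 0) (hxy : Cj H x y) : False := by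
  obtain ⟨k, rfl⟩ := hxy
  obtain ⟨r, hr, h1, -⟩ := hB.key_inv he k x
  have h2 : r * a * r⁻¹ = a' := hB.J_eq (ha.conj r) ha'
    (fun e => hx0 ((smul_eq_zero_iff_eq k).1 e)) (h1 ▸ smul_mem_L r hx) hy
  have hri : r⁻¹ = r := inv_eq_of_mul_eq_one_right hr
  have e3 : r * a * (r * a) = a' * a := by rw [← h2, hri]; simp only [mul_assoc]
  have h4 := hB.no_four he (h := r * a) (by
    rw [e3]
    calc a' * a * (a' * a) = a' * (a * a') * a := by simp only [mul_assoc]
      _ = a' * a' * (a * a) := by rw [hcm]; simp only [mul_assoc]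
      _ = 1 := by rw [hB.J_sq ha, hB.J_sq ha', one_mul])
  rw [e3] at h4
  apply hne
  rw [← hB.J_inv ha']; exact (inv_eq_of_mul_eq_one_right h4).symm

theorem comm_of_not_K {a b c e : H} (h : NC V a b) (hc : J V c) (hck : ¬ C V a b ≤ U V c)
    (he : J V e) (hek : C V a b ≤ U V e) : c * e = e * c := by
  obtain ⟨u, hu, h0⟩ := hB.exists_L (V := V) he.1
  exact hB.comm_of_fix he hu h0 (hB.rank3 h hc hck (hB.L_le_W h he hek hu))

theorem W_eq_top (hI : Irr H V) {a b : H} (h : NC V a b) : W V a b = ⊤ := by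
  by_cases hall : ∀ g : H, C V a b ≤ U V (g * a * g⁻¹)
  · have hall' : ∀ g : H, C V a b ≤ U V (g * b * g⁻¹) := fun g => by
      by_contra hn
      have := hB.comm_of_not_K h (h.hb.conj g) hn (h.ha.conj g) (hall g)
      apply h.hn
      calc a * b = g⁻¹ * (g * a * g⁻¹ * (g * b * g⁻¹)) * g := by group
        _ = b * a := by rw [← this]; group
    refine (hI _ fun g x hx => ?_).resolve_left fun e => ?_
    · obtain ⟨u, hu, v, hv, rfl⟩ := AddSubgroup.mem_sup.1 hx
      rw [smul_add]
      exact AddSubgroup.add_mem _ (hB.L_le_W h (h.ha.conj g) (hall g) (smul_mem_L g hu))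
        (hB.L_le_W h (h.hb.conj g) (hall' g) (smul_mem_L g hv))
    · obtain ⟨u, hu, h0⟩ := hB.exists_L (V := V) h.ha.1
      have : u ∈ W V a b := AddSubgroup.mem_sup_left hu
      rw [e] at this
      exact h0 this
  · exfalso
    push Not at hall
    obtain ⟨g, hg⟩ := hall
    have ha' := h.ha.conj g
    have hne : a ≠ g * a * g⁻¹ := fun e => hg (e ▸ inf_le_left)
    have hcm := (hB.comm_of_not_K h ha' hg h.ha inf_le_left).symm
    obtain ⟨x, hx, hx0⟩ := hB.exists_L (V := V) h.ha.1
    rcases hB.ch with h2 | h2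
    · exact hB.perp_even h2 h.ha ha' hne hcm hx (smul_mem_L g hx) hx0 ⟨g, rfl⟩
    · refine hB.perp_odd h2 h.ha ha' hne hcm hx (smul_mem_L g hx) hx0 ⟨g, rfl⟩ fun e he => ?_
      by_cases hek : C V a b ≤ U V e
      · exact Or.inr (hB.comm_of_not_K h ha' hg he hek).symm
      · exact Or.inl (hB.comm_of_not_K h he hek h.ha inf_le_left)

omit [Finite H] in
theorem pm_of_comm (hI : Irr H V) {a : H} (ha : J V a)
    (hall : ∀ c d : H, J V c → J V d → c * d = d * c) :
    ∀ h : H, h = 1 ∨ ∀ v : V, h • v = -v := by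
  obtain ⟨x, hx, hx0⟩ := hB.exists_L (V := V) ha.1
  rcases hB.ch with h2 | h2
  · exfalso
    let P : AddSubgroup V := ⨅ c : {c : H // J V c}, U V c.1
    rcases hI P (fun h y hy => by
      rw [AddSubgroup.mem_iInf] at hy ⊢
      intro c
      have := smul_mem_U h (hy ⟨h⁻¹ * c * h⁻¹⁻¹, c.2.conj _⟩)
      rwa [show h * (h⁻¹ * c.1 * h⁻¹⁻¹) * h⁻¹ = c.1 by group] at this) with h | h
    · have : x ∈ P := by
        rw [AddSubgroup.mem_iInf]
        intro c
        exact hB.quad h2 (hB.J_sq c.2) (hB.J_sq ha) (hall _ _ c.2 ha) hx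
      rw [h] at this
      exact hx0 this
    · exact ha.1 (hB.eq_one_of_top (h ▸ iInf_le _ (⟨a, ha⟩ : {c : H // J V c})))
  · have hc : ∀ g : H, g * a = a * g := by
      intro g
      by_contra hn
      have hne : a ≠ g * a * g⁻¹ := fun e => hn (by
        calc g * a = g * a * g⁻¹ * g := by group
          _ = a * g := by rw [← e])
      exact hB.perp_odd h2 ha (ha.conj g) hne (hall _ _ ha (ha.conj g)) hx (smul_mem_L g hx) hx0
        ⟨g, rfl⟩ fun e he => Or.inl (hall _ _ he ha)
    have htop : L V a = ⊤ := (hI _ fun g y hy => by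
      have := smul_mem_L g hy
      rwa [hc, mul_inv_cancel_right] at this).resolve_left fun e => hx0 (by rwa [e] at hx)
    intro h
    rcases hB.pm_all h2 ha (hc h) with h1 | h1
    · exact Or.inl (hB.eq_one_of_top (htop ▸ h1))
    · exact Or.inr fun v => h1 v (htop ▸ trivial)

section top

variable {a b : H} (h : NC V a b) (hW : W V a b = ⊤)
include h hW

omit [Finite V] [Finite H] in
theorem C_bot : C V a b = ⊥ := by
  have := hB.W_inf_C h
  rwa [hW, top_inf_eq] at this

omit [Finite V] [Finite H] in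
theorem allK (k : H) : C V a b ≤ U V k := by rw [hB.C_bot h hW]; exact bot_le

theorem U_disj {c d : H} (hc : J V c) (hd : J V d) (hne : c ≠ d) : U V c ⊓ U V d = ⊥ := by
  have hK := hB.allK h hW
  by_cases hcd : c * d = d * c
  · rcases hB.ch with h2 | h2
    · exact (hne (hB.no_comm_even h2 h hc hd (hK _) (hK _) hcd)).elim
    · rw [(hB.U_eq_sup h hc (hK _) hd.1 (hB.L_le_U hc hd hne hcd) (hK _)).2,
        (hB.U_eq_sup h hd (hK _) hc.1 (hB.L_le_U hd hc hne.symm hcd.symm) (hK _)).2,
        hB.C_bot h hW, sup_bot_eq, sup_bot_eq]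
      exact hB.L_disj hd hc hne.symm
  · have := hB.C_eq h ⟨hc, hd, hcd⟩ (hK _) (hK _)
    rw [hB.C_bot h hW] at this
    exact this

theorem J_of_fix {k : H} (hk : k ≠ 1) {x : V} (hx0 : x ≠ 0) (hx : k • x = x) : J V k := by
  have hK := hB.allK h hW
  obtain ⟨e, he, -, hxe⟩ := hB.cover h (w := x) (hW ▸ trivial) hx0
  have hcm := hB.comm_of_fix he hxe hx0 (mem_U.2 hx)
  refine (hB.U_eq_sup h he (hK _) hk ?_ (hK _)).1
  rcases hB.ch with h2 | h2
  · intro u hu
    have hLU := hB.quad h2 (hB.J_sq he) (hB.J_sq he) rfl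
    refine mem_U.2 (hB.axis_even h2 h he (hK _) (hK _) (hLU hu) (hLU ?_))
    have := smul_mem_L k hu
    rwa [hcm, mul_inv_cancel_right] at this
  · refine (hB.pm_all h2 he hcm).resolve_right fun h1 => hx0 (h2 x ?_)
    rw [← neg_eq_iff_add_eq_zero, ← h1 x hxe, hx]

theorem exists_fix_a {c : H} (hc : J V c) : ∃ x : V, x ≠ 0 ∧ c • x = x := by
  have h1 := hB.card_U_inf_W h (hB.card_L_K h hc (hB.allK h hW c))
  have h2 := hB.one_lt_card_L (V := V) h.ha.1
  by_contra hn
  push Not at hn
  rw [(AddSubgroup.eq_bot_iff_forall _).2 (fun x (hx : x ∈ U V c ⊓ W V a b) => by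
    by_contra h0; exact hn x h0 (mem_U.1 hx.1)), AddSubgroup.card_bot] at h1
  omega

theorem not_J_mul {c d : H} (hc : J V c) (hd : J V d) : ¬ J V (c * d) := by
  intro hJ
  by_cases hne : c = d
  · exact hJ.1 (hne ▸ hB.J_sq hc)
  obtain ⟨x, hx0, hx⟩ := hB.exists_fix_a h hW hJ
  have : x ∈ U V (c * d) := mem_U.2 hx
  rw [hB.U_mul hc hd hne, hB.U_disj h hW hc hd hne] at this
  exact hx0 this

theorem eq_mul_of_not_J {k : H} (hk : ¬ J V k) : ∃ c : H, J V c ∧ k = c * a := by
  obtain ⟨x, hx0, hx⟩ := hB.exists_fix_a h hW h.ha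
  have main : ∀ g : H, g • x = x → g = 1 ∨ g = a := by
    intro g hg
    by_contra hn
    push Not at hn
    have : x ∈ U V g ⊓ U V a := ⟨mem_U.2 hg, mem_U.2 hx⟩
    rw [hB.U_disj h hW (hB.J_of_fix h hW hn.1 hx0 hg) h.ha hn.2] at this
    exact hx0 this
  obtain ⟨c, hc, hcx⟩ : ∃ c : H, J V c ∧ c • x = k • x := by
    by_cases h1 : k • x = x
    · exact ⟨a, h.ha, hx.trans h1.symm⟩
    · obtain ⟨e, he, -, hm⟩ := hB.cover h (w := k • x - x) (hW ▸ trivial) (sub_ne_zero.2 h1)
      exact ⟨e, he, hB.J_real he ⟨k, rfl⟩ h1 hm⟩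
  rcases main (c * k) (by rw [mul_smul, ← hcx, hB.J_smul_smul hc]) with h1 | h1
  · exact (hk (by rw [← inv_eq_of_mul_eq_one_right h1, hB.J_inv hc]; exact hc)).elim
  · exact ⟨c, hc, by rw [← h1, ← mul_assoc, hB.J_sq hc, one_mul]⟩

theorem plane_structure : ∃ A : Subgroup H, (∀ k, k ∈ A ↔ ¬ J V k) ∧
    Nat.card A = Nat.card (L V a) + 1 ∧ (∀ x ∈ A, a * x * a = x⁻¹) := by
  have haa := hB.J_sq h.ha
  have hai := hB.J_inv h.ha
  let A : Subgroup H :=
    { carrier := {k | ¬ J V k}
      one_mem' := fun hJ => hJ.1 rfl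
      mul_mem' := fun {x y} hx hy hJ => by
        obtain ⟨c, hc, rfl⟩ := hB.eq_mul_of_not_J h hW hx
        obtain ⟨d, hd, rfl⟩ := hB.eq_mul_of_not_J h hW hy
        refine hB.not_J_mul h hW hc (hd.conj a) ?_
        rw [hai]; simpa only [mul_assoc] using hJ
      inv_mem' := fun {x} hx hJ => hx (by
        have := hB.J_inv hJ
        rw [inv_inv] at this
        rwa [this]) }
  refine ⟨A, fun k => Iff.rfl, ?_, fun x hx => ?_⟩
  · have h1 := hB.count_lines ⊤ (Nat.card (L V a)) (fun y _ hy0 => by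
      obtain ⟨e, he, hek, hm⟩ := hB.cover h (w := y) (hW ▸ trivial) hy0
      exact ⟨e, he, le_top, hm, hB.card_L_K h he hek⟩)
    have h2 : Nat.card A = Nat.card {e : H // J V e ∧ L V e ≤ ⊤} := by
      refine Nat.card_congr (Equiv.ofBijective (fun e : {e : H // J V e ∧ L V e ≤ ⊤} =>
        (⟨e.1 * a, hB.not_J_mul h hW e.2.1 h.ha⟩ : A)) ⟨?_, ?_⟩).symm
      · intro e e' he
        have : e.1 * a = e'.1 * a := congrArg Subtype.val he
        exact Subtype.ext (mul_right_cancel this)
      · intro x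
        obtain ⟨c, hc, e⟩ := hB.eq_mul_of_not_J h hW x.2
        exact ⟨⟨c, hc, le_top⟩, Subtype.ext e.symm⟩
    rw [← hW, hB.card_W h, hW, ← h2] at h1
    have h3 := hB.one_lt_card_L (V := V) h.ha.1
    obtain ⟨k, hk⟩ : ∃ k, Nat.card (L V a) = k + 1 := ⟨Nat.card (L V a) - 1, by omega⟩
    rw [hk] at h1 h3 ⊢
    rw [Nat.add_sub_cancel] at h1
    apply Nat.eq_of_mul_eq_mul_right (show 0 < k by omega)
    nlinarith
  · obtain ⟨c, hc, rfl⟩ := hB.eq_mul_of_not_J h hW hx
    rw [mul_inv_rev, hai, hB.J_inv hc, mul_assoc, mul_assoc, haa, mul_one]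

end top

end Bin2

theorem classify [Finite V] [Finite H] [Nontrivial V] (hB : Bin H V) (hI : Irr H V) :
    ((Nat.card V).Prime ∧ Nat.card H ≤ 2) ∨
    ∃ (E : Type) (_ : Field E) (_ : Fintype E) (p m : ℕ) (_ : Fact p.Prime) (_ : CharP E p)
      (e : V ≃+ E), Nat.card E = (p ^ m) ^ 2 ∧
      (∀ h : H, ∃ α : E, α ^ (p ^ m + 1) = 1 ∧
        ((∀ v, e (h • v) = α * e v) ∨ ∀ v, e (h • v) = α * e v ^ p ^ m)) ∧
      (∀ α : E, α ^ (p ^ m + 1) = 1 → ∃ h : H, ∀ v, e (h • v) = α * e v) ∧
      ∃ a : H, ∀ v, e (a • v) = e v ^ p ^ m := by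
  classical
  have hpm : (∀ h : H, h = 1 ∨ ∀ v : V, h • v = -v) → (Nat.card V).Prime ∧ Nat.card H ≤ 2 := by
    intro hh
    constructor
    · have : IsSimpleAddGroup V := ⟨fun P _ => hI P fun h x hx => by
        rcases hh h with h1 | h1
        · rwa [h1, one_smul]
        · rw [h1]; exact P.neg_mem hx⟩
      exact IsSimpleAddGroup.prime_card
    · have : Function.Injective fun h : H => decide (h = 1) := by
        intro x y e
        have e' : x = 1 ↔ y = 1 := by simpa using e
        by_cases hx : x = 1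
        · rw [hx, e'.1 hx]
        · have h1 := (hh x).resolve_left hx
          have h2 := (hh y).resolve_left fun t => hx (e'.2 t)
          rw [← inv_mul_eq_one]
          exact hB.faithful _ fun v => by rw [mul_smul, h2, ← h1, inv_smul_smul]
      simpa using Nat.card_le_card_of_injective _ this
  by_cases h1 : ∀ g : H, g = 1
  · exact Or.inl (hpm fun h => Or.inl (h1 h))
  push Not at h1
  obtain ⟨g, hg⟩ := h1
  have hB2 := hB.bin2 hI hg
  by_cases hall : ∀ c d : H, J V c → J V d → c * d = d * c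
  · obtain ⟨a, ha, -⟩ := exists_J (V := V) hg
    exact Or.inl (hpm (hB2.pm_of_comm hI ha hall))
  right
  push Not at hall
  obtain ⟨a, b, ha, hb, hn⟩ := hall
  have h : NC V a b := ⟨ha, hb, hn⟩
  have hW := hB2.W_eq_top hI h
  obtain ⟨A, hA, hcard, hinv⟩ := hB2.plane_structure h hW
  have haa := hB.J_sq ha
  have hV : Nat.card V = Nat.card (L V a) ^ 2 := by
    rw [← hB2.card_W h, hW, AddSubgroup.card_top]
  obtain ⟨x0, hx0, hax0⟩ := hB2.exists_fix_a h hW ha
  have hsr : ∀ x ∈ A, ∀ v : V, x • v = v → x = 1 ∨ v = 0 := by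
    intro x hx v hv
    by_contra hne
    push Not at hne
    exact (hA x).1 hx (hB2.J_of_fix h hW hne.1 hne.2 hv)
  obtain ⟨E, iF, iT, p, m, hp, hc, e, hq, h1, h2⟩ := field_of (A : Set H) a _ hV (by
      intro x hx y hy
      have e1 := hinv _ (A.mul_mem hx hy)
      have e2 : a * (x * y) * a = (a * x * a) * (a * y * a) := by
        calc a * (x * y) * a = a * x * (a * a) * y * a := by rw [haa]; simp only [mul_assoc, mul_one]
          _ = _ := by simp only [mul_assoc]
      rw [e2, hinv x hx, hinv y hy, ← mul_inv_rev] at e1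
      exact (inv_injective e1).symm)
    (fun x hx => by
      rw [← hcard]
      exact congrArg Subtype.val (pow_card_eq_one' (x := (⟨x, hx⟩ : A))))
    hinv haa (irr_of_semiregular A _ hV hcard hsr) x0 hx0 hax0
  rw [hq] at h1 h2 hV hcard
  refine ⟨E, iF, iT, p, m, hp, hc, e, by rw [← hV]; exact Nat.card_congr e.toEquiv.symm,
    fun k => ?_, fun α hα => ?_, a, h2⟩
  · by_cases hk : k ∈ A
    · obtain ⟨α, h3, h4⟩ := h1 k hk
      exact ⟨α, h3, Or.inl h4⟩
    · have hJ : J V k := by by_contra t; exact hk ((hA k).2 t)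
      obtain ⟨α, h3, h4⟩ := h1 (k * a) ((hA _).2 (hB2.not_J_mul h hW hJ ha))
      refine ⟨α, h3, Or.inr fun v => ?_⟩
      rw [← h2, ← h4, mul_smul, hB.J_smul_smul ha]
  · choose f hf1 hf2 using fun x : A => h1 x x.2
    have hpos : 0 < p ^ m + 1 := by omega
    let s := (Polynomial.nthRoots (p ^ m + 1) (1 : E)).toFinset
    have hs : ∀ β : E, β ∈ s ↔ β ^ (p ^ m + 1) = 1 := fun β => by
      simp [s, Polynomial.mem_nthRoots hpos]
    let f' : A → s := fun x => ⟨f x, (hs _).2 (hf1 x)⟩
    have hf' : Function.Injective f' := by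
      intro x y exy
      have e' : f x = f y := congrArg Subtype.val exy
      apply Subtype.ext
      rw [← inv_mul_eq_one]
      refine hB.faithful _ fun v => ?_
      rw [mul_smul, inv_smul_eq_iff]
      apply e.injective
      rw [hf2, hf2, e']
    have hbij := hf'.bijective_of_nat_card_le (by
      rw [hcard, Nat.card_eq_fintype_card, Fintype.card_coe]
      exact (Multiset.toFinset_card_le _).trans (Polynomial.card_nthRoots _ _))
    obtain ⟨x, hx⟩ := hbij.2 ⟨α, (hs _).2 hα⟩
    have hx' : f x = α := congrArg Subtype.val hx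
    exact ⟨x, fun v => by rw [hf2, hx']⟩

end H79.BA
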